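import Cfsg.Agent.CharDeg.TwoDegrees
import Cfsg.Agent.PGroup.Basic

/-!
Maximal normal abelian subgroups when all degrees are `1` or a prime `p` and the central quotient
is a `p`-group.
-/

set_option autoImplicit false
set_option linter.style.haveILetI false

noncomputable section

namespace Cfsg.Agent.CharDeg

open Cfsg

universe u
variable {G : Type u} [Group G] [Finite G] {p : ℕ}

/-- A maximal normal abelian subgroup. -/
structure IsMaxNormalAbelian (A : Subgroup G) : Prop where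
  normal : A.Normal
  comm : ∀ a ∈ A, ∀ b ∈ A, a * b = b * a
  max : ∀ B : Subgroup G, B.Normal → (∀ a ∈ B, ∀ b ∈ B, a * b = b * a) → A ≤ B → B ≤ A

theorem exists_maxNormalAbelian (A₀ : Subgroup G) (hn : A₀.Normal)
    (hc : ∀ a ∈ A₀, ∀ b ∈ A₀, a * b = b * a) : ∃ A, A₀ ≤ A ∧ IsMaxNormalAbelian A := by
  obtain ⟨A, hle, hA⟩ := Finite.exists_le_maximal
    (p := fun B : Subgroup G => B.Normal ∧ ∀ a ∈ B, ∀ b ∈ B, a * b = b * a) ⟨hn, hc⟩
  exact ⟨A, hle, hA.1.1, hA.1.2, fun B hB hB' h => hA.2 ⟨hB, hB'⟩ h⟩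

theorem closure_insert_comm {H : Subgroup G} (hH : ∀ a ∈ H, ∀ b ∈ H, a * b = b * a) {x : G}
    (hx : ∀ a ∈ H, a * x = x * a) :
    ∀ a ∈ Subgroup.closure (insert x (H : Set G)), ∀ b ∈ Subgroup.closure (insert x (H : Set G)),
      a * b = b * a := by
  intro a ha b hb
  haveI : IsMulCommutative (Subgroup.closure (insert x (H : Set G))) :=
    Subgroup.isMulCommutative_closure (by
      intro u hu v hv
      rcases hu with rfl | hu
      · rcases hv with rfl | hv
        · rfl
        · exact (hx v hv).symm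
      · rcases hv with rfl | hv
        · exact hx u hu
        · exact hH u hu v hv)
  exact congrArg Subtype.val (mul_comm' (⟨a, ha⟩ : Subgroup.closure (insert x (H : Set G))) ⟨b, hb⟩)

theorem normal_closure_insert (H : Subgroup G) [H.Normal] {x : G}
    (hx : ∀ g : G, g * x * g⁻¹ * x⁻¹ ∈ H) : (Subgroup.closure (insert x (H : Set G))).Normal := by
  refine ⟨fun n hn g => ?_⟩
  induction hn using Subgroup.closure_induction with
  | mem y hy =>
    rcases hy with rfl | hy
    · rw [show g * y * g⁻¹ = (g * y * g⁻¹ * y⁻¹) * y by group]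
      exact mul_mem (Subgroup.subset_closure (Set.mem_insert_of_mem _ (hx g)))
        (Subgroup.subset_closure (Set.mem_insert _ _))
    · exact Subgroup.subset_closure (Set.mem_insert_of_mem _ (Subgroup.Normal.conj_mem ‹_› y hy g))
  | one => simpa using Subgroup.one_mem _
  | mul a b _ _ iha ihb =>
    rw [show g * (a * b) * g⁻¹ = (g * a * g⁻¹) * (g * b * g⁻¹) by group]
    exact mul_mem iha ihb
  | inv a _ iha =>
    rw [show g * a⁻¹ * g⁻¹ = (g * a * g⁻¹)⁻¹ by group]
    exact inv_mem iha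

variable {A : Subgroup G}

theorem IsMaxNormalAbelian.center_le (hA : IsMaxNormalAbelian A) : Subgroup.center G ≤ A := by
  intro z hz
  haveI := hA.normal
  exact hA.max _ (normal_closure_insert A fun g => by
      rw [Subgroup.mem_center_iff.1 hz g, mul_inv_cancel_right, mul_inv_cancel]
      exact A.one_mem)
    (closure_insert_comm hA.comm fun a _ => Subgroup.mem_center_iff.1 hz a)
    ((Set.subset_insert _ _).trans Subgroup.subset_closure)
    (Subgroup.subset_closure (Set.mem_insert _ _))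

theorem IsMaxNormalAbelian.isPGroup_quotient (hA : IsMaxNormalAbelian A)
    (hP : IsPGroup p (G ⧸ Subgroup.center G)) (g : G) : ∃ k : ℕ, g ^ p ^ k ∈ A := by
  obtain ⟨k, hk⟩ := hP (g : G ⧸ Subgroup.center G)
  exact ⟨k, hA.center_le ((QuotientGroup.eq_one_iff _).1 (by rwa [QuotientGroup.mk_pow]))⟩

theorem IsMaxNormalAbelian.centralizer_eq [Fact p.Prime] (hA : IsMaxNormalAbelian A)
    (hP : IsPGroup p (G ⧸ Subgroup.center G)) : Subgroup.centralizer (A : Set G) = A := by
  haveI := hA.normal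
  refine le_antisymm ?_ fun a ha => Subgroup.mem_centralizer_iff.2 fun b hb => hA.comm b hb a ha
  by_contra hne
  have hQ : IsPGroup p (G ⧸ A) := fun q => by
    obtain ⟨g, rfl⟩ := QuotientGroup.mk_surjective q
    obtain ⟨k, hk⟩ := hA.isPGroup_quotient hP g
    exact ⟨k, by rw [← QuotientGroup.mk_pow, QuotientGroup.eq_one_iff]; exact hk⟩
  set C := (Subgroup.centralizer (A : Set G)).map (QuotientGroup.mk' A)
  haveI : C.Normal := Subgroup.Normal.map inferInstance _ (QuotientGroup.mk'_surjective A)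
  have hCne : C ≠ ⊥ := fun h => hne fun x hx => by
    have h1 := Subgroup.mem_map_of_mem (QuotientGroup.mk' A) hx
    rw [show (Subgroup.centralizer (A : Set G)).map (QuotientGroup.mk' A) = ⊥ from h,
      Subgroup.mem_bot] at h1
    exact (QuotientGroup.eq_one_iff x).1 h1
  obtain ⟨⟨y, hy⟩, hy1⟩ := Subgroup.ne_bot_iff_exists_ne_one.1 (PGroup.inf_center_ne_bot hQ C hCne)
  obtain ⟨⟨x, hx, rfl⟩, hyz⟩ := Subgroup.mem_inf.1 hy
  have hxA : x ∉ A := fun h => hy1 (Subtype.ext ((QuotientGroup.eq_one_iff x).2 h))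
  refine hxA (hA.max _ (normal_closure_insert A fun g => ?_)
    (closure_insert_comm hA.comm fun a ha => Subgroup.mem_centralizer_iff.1 hx a ha)
    ((Set.subset_insert _ _).trans Subgroup.subset_closure)
    (Subgroup.subset_closure (Set.mem_insert _ _)))
  rw [← QuotientGroup.eq_one_iff, QuotientGroup.mk_mul, QuotientGroup.mk_mul, QuotientGroup.mk_mul,
    QuotientGroup.mk_inv, QuotientGroup.mk_inv, mul_inv_eq_one, mul_inv_eq_iff_eq_mul]
  exact Subgroup.mem_center_iff.1 hyz _

section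

variable [Fact p.Prime] (hP : IsPGroup p (G ⧸ Subgroup.center G))
  (hcd : ∀ χ : IrrCharacter G, charDegree (χ : G → ℂ) = 1 ∨ charDegree (χ : G → ℂ) = p)

include hP hcd

/-- The structure of a maximal normal abelian subgroup. -/
theorem maxNormalAbelian_data (hA : IsMaxNormalAbelian A) (hA1 : A ≠ ⊤) (hAp : A.index ≠ p) :
    (∀ x y : G, x * y * x⁻¹ * y⁻¹ ∈ A) ∧
      Nat.card A = p * Nat.card (Subgroup.center G) ∧
      (∀ g : G, ∀ a ∈ A, g * a * g⁻¹ * a⁻¹ ∈ Subgroup.center G) ∧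
      ∀ a ∈ A, a ∉ Subgroup.center G → Subgroup.centralizer {a} = A := by
  classical
  haveI := hA.normal
  have hpp : p.Prime := Fact.out
  have hCA := hA.centralizer_eq hP
  have hnil : Group.IsNilpotent G := Group.of_quotient_center_nilpotent hP.isNilpotent
  have hidx : ∀ w : A →* ℂˣ, lstab A w ≠ ⊤ → (lstab A w).index = p := fun w hw => by
    obtain ⟨χ, hχ⟩ := lstab_index_dvd w
    have h1 := Subgroup.one_lt_index_of_ne_top hw
    rcases hcd χ with h | h <;> rw [h] at hχ
    · exact absurd (Nat.dvd_one.1 hχ) h1.ne'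
    · exact ((Nat.dvd_prime hpp).1 hχ).resolve_left h1.ne'
  have hmax : ∀ (w : A →* ℂˣ) (g : G), lstab A w ≠ ⊤ → g ∉ lstab A w →
      lstab A w ⊔ Subgroup.zpowers g = ⊤ := by
    intro w g hw hg
    rw [← Subgroup.index_eq_one]
    have hd := Subgroup.index_dvd_of_le (le_sup_left : lstab A w ≤ lstab A w ⊔ Subgroup.zpowers g)
    rw [hidx w hw] at hd
    refine ((Nat.dvd_prime hpp).1 hd).resolve_right fun h => hg ?_
    have hle : lstab A w ⊔ Subgroup.zpowers g ≤ lstab A w := by
      refine Subgroup.relIndex_eq_one.1 ?_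
      have := Subgroup.relIndex_mul_index
        (le_sup_left : lstab A w ≤ lstab A w ⊔ Subgroup.zpowers g)
      rw [h, hidx w hw] at this
      exact (Nat.mul_eq_right hpp.ne_zero).1 this
    exact hle (le_sup_right (a := lstab A w) (Subgroup.mem_zpowers g))
  have hnorm : ∀ w : A →* ℂˣ, (lstab A w).Normal := fun w => by
    by_cases hw : lstab A w = ⊤
    · rw [hw]; infer_instance
    refine Subgroup.NormalizerCondition.normal_of_coatom _ Group.normalizerCondition_of_isNilpotent ⟨hw, fun B hB => ?_⟩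
    obtain ⟨g, hgB, hg⟩ := SetLike.exists_of_lt hB
    exact top_le_iff.1 (hmax w g hw hg ▸ sup_le hB.le (Subgroup.zpowers_le.2 hgB))
  have hcl : ∀ (x y : G) (w : A →* ℂˣ), x * y * x⁻¹ * y⁻¹ ∈ lstab A w := by
    intro x y w
    by_cases hw : lstab A w = ⊤
    · rw [hw]; exact Subgroup.mem_top _
    haveI := hnorm w
    have hc : IsCyclic (G ⧸ lstab A w) :=
      isCyclic_of_prime_card (p := p) (by rw [← Subgroup.index_eq_card, hidx w hw])
    rw [← QuotientGroup.eq_one_iff, QuotientGroup.mk_mul, QuotientGroup.mk_mul, QuotientGroup.mk_mul,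
      QuotientGroup.mk_inv, QuotientGroup.mk_inv, mul_inv_eq_one, mul_inv_eq_iff_eq_mul]
    haveI := hc.isMulCommutative
    exact mul_comm' _ _
  have hcomm : ∀ (x y : G) (w : A →* ℂˣ), cjl A (x * y) w = cjl A (y * x) w := by
    intro x y w
    conv_lhs => rw [show x * y = (x * y * x⁻¹ * y⁻¹) * (y * x) by group, ← cjl_cjl,
      mem_lstab.1 (hcl x y w)]
  have hGA : ∀ x y : G, x * y * x⁻¹ * y⁻¹ ∈ A := fun x y => by
    have := mem_centralizer_of_forall_lstab hA.comm (hcl x y)
    rwa [hCA] at this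
  -- the sweep: a fixed difference determines all differences
  have sweep : ∀ (w d : A →* ℂˣ) (g : G), lstab A w ≠ ⊤ → g ∉ lstab A w → lstab A d = ⊤ →
      (∀ a, cjl A g w a = w a * d a) →
      (∀ a, d a ^ p = 1) ∧ (∃ a, d a ≠ 1) ∧
        ∀ h : G, ∃ n : ℕ, ∀ a, cjl A h w a = w a * d a ^ n := by
    intro w d g hw hg hdtop hgd
    have hpow : ∀ (k : ℕ) (a : A), cjl A (g ^ k) w a = w a * d a ^ k := by
      intro k
      induction k with
      | zero => simp
      | succ k ih =>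
        intro a
        have hdg : cjl A g d = d :=
          mem_lstab.1 (show g ∈ lstab A d by rw [hdtop]; exact Subgroup.mem_top g)
        rw [pow_succ, ← cjl_cjl, cjl_apply, ih, ← cjl_apply g w, ← cjl_apply g d, hdg, hgd,
          mul_assoc, ← pow_succ']
    have hp1 : ∀ a, d a ^ p = 1 := by
      intro a
      haveI := hnorm w
      have h1 : g ^ p ∈ lstab A w := hidx w hw ▸ Subgroup.pow_index_mem (lstab A w) g
      have := hpow p a
      rw [mem_lstab.1 h1] at this
      exact left_eq_mul.1 this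
    refine ⟨hp1, ?_, fun h => ?_⟩
    · by_contra hc
      push Not at hc
      exact hg (mem_lstab.2 (MonoidHom.ext fun a => by rw [hgd, hc, mul_one]))
    · haveI := hnorm w
      have hh : h ∈ lstab A w ⊔ Subgroup.zpowers g := by rw [hmax w g hw hg]; exact Subgroup.mem_top h
      obtain ⟨t, ht, s, hs, rfl⟩ := Subgroup.mem_sup_of_normal_left.1 hh
      obtain ⟨n, rfl⟩ := (mem_powers_iff_mem_zpowers (x := g)).2 hs
      exact ⟨n, fun a => by rw [← cjl_cjl, mem_lstab.1 ht, hpow]⟩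
  -- pairs with different stabilisers share their differences
  have pair : ∀ w₁ w₂ : A →* ℂˣ, lstab A w₁ ≠ ⊤ → lstab A w₂ ≠ ⊤ → lstab A w₁ ≠ lstab A w₂ →
      ∃ d : A →* ℂˣ, lstab A d = ⊤ ∧ (∀ a, d a ^ p = 1) ∧ (∃ a, d a ≠ 1) ∧
        (∀ h : G, ∃ n : ℕ, ∀ a, cjl A h w₁ a = w₁ a * d a ^ n) ∧
        ∀ h : G, ∃ n : ℕ, ∀ a, cjl A h w₂ a = w₂ a * d a ^ n := by
    intro w₁ w₂ h1 h2 hne
    have hle : ∀ {u v : A →* ℂˣ}, lstab A u ≠ ⊤ → lstab A v ≠ ⊤ → lstab A u ≤ lstab A v →
        lstab A u = lstab A v := fun {u v} hu hv hle =>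
      le_antisymm hle (Subgroup.relIndex_eq_one.1 (by
        have := Subgroup.relIndex_mul_index hle
        rw [hidx u hu, hidx v hv] at this
        exact (Nat.mul_eq_right hpp.ne_zero).1 this))
    have h3 : ¬ lstab A (w₁ * w₂) ≤ lstab A w₁ := by
      intro hsub
      have hne3 : lstab A (w₁ * w₂) ≠ ⊤ := fun h => h1 (top_le_iff.1 (h ▸ hsub))
      have he := hle hne3 h1 hsub
      refine hne (hle h1 h2 fun b hb => ?_)
      have h4 := hb
      rw [← he, mem_lstab, cjl_mul, mem_lstab.1 hb] at h4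
      exact mem_lstab.2 (MonoidHom.ext fun a => mul_left_cancel (a := w₁ a) (DFunLike.congr_fun h4 a))
    obtain ⟨g, hg3, hg1⟩ := SetLike.not_le_iff_exists.1 h3
    rw [mem_lstab, cjl_mul] at hg3
    set d := cjl A g w₁ * w₁⁻¹ with hd
    have hd' : ∀ a, d a = w₂ a * (cjl A g w₂ a)⁻¹ := by
      intro a
      have h4 : cjl A g w₁ a * cjl A g w₂ a = w₁ a * w₂ a := DFunLike.congr_fun hg3 a
      simp only [hd, MonoidHom.mul_apply, MonoidHom.inv_apply, mul_inv_eq_iff_eq_mul]
      rw [mul_right_comm, eq_mul_inv_iff_mul_eq, h4, mul_comm]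
    have hg2 : g ∉ lstab A w₂ := fun h => hg1 (mem_lstab.2 (MonoidHom.ext fun a => by
      have h4 : d a = 1 := by rw [hd', mem_lstab.1 h, mul_inv_cancel]
      rwa [hd, MonoidHom.mul_apply, MonoidHom.inv_apply, mul_inv_eq_one] at h4))
    have hgd : ∀ a, cjl A g w₁ a = w₁ a * d a := fun a => by
      simp only [hd, MonoidHom.mul_apply, MonoidHom.inv_apply, mul_comm (cjl A g w₁ a),
        mul_inv_cancel_left]
    have hd1 : lstab A w₁ ≤ lstab A d := fun c hc => by
      rw [mem_lstab, hd, cjl_mul, cjl_inv, cjl_cjl, hcomm, ← cjl_cjl, mem_lstab.1 hc]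
    have hd2 : lstab A w₂ ≤ lstab A d := fun c hc => by
      rw [mem_lstab]
      refine MonoidHom.ext fun a => ?_
      rw [cjl_apply, hd', hd']
      have e2 : w₂ (MulAut.conjNormal c a) = w₂ a := DFunLike.congr_fun (mem_lstab.1 hc) a
      have e3 : cjl A g w₂ (MulAut.conjNormal c a) = cjl A g w₂ a := by
        rw [← cjl_apply c (cjl A g w₂), cjl_cjl, hcomm, ← cjl_cjl, mem_lstab.1 hc]
      rw [e2, e3]
    have hdtop : lstab A d = ⊤ := by
      by_contra hd3
      exact hne ((hle h1 hd3 hd1).trans (hle h2 hd3 hd2).symm)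
    obtain ⟨hp1, hne1, hs1⟩ := sweep w₁ d g h1 hg1 hdtop hgd
    have hdi : lstab A d⁻¹ = ⊤ := top_le_iff.1 fun c _ => by
      rw [mem_lstab, cjl_inv,
        mem_lstab.1 (show c ∈ lstab A d by rw [hdtop]; exact Subgroup.mem_top c)]
    obtain ⟨-, -, hs2⟩ := sweep w₂ d⁻¹ g h2 hg2 hdi fun a => by
      rw [MonoidHom.inv_apply, hd', mul_inv_rev, inv_inv, mul_comm (cjl A g w₂ a),
        mul_inv_cancel_left]
    refine ⟨d, hdtop, hp1, hne1, hs1, fun h => ?_⟩
    obtain ⟨n, hn⟩ := hs2 h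
    refine ⟨n * (p - 1), fun a => ?_⟩
    rw [hn, MonoidHom.inv_apply, inv_pow, mul_comm n, pow_mul]
    congr 1
    have e : d a ^ (p - 1) = (d a)⁻¹ := eq_inv_of_mul_eq_one_left (by
      rw [← pow_succ, Nat.sub_add_cancel hpp.one_le, hp1])
    rw [e, inv_pow]
  obtain ⟨w₁, hw₁⟩ : ∃ w : A →* ℂˣ, lstab A w ≠ ⊤ := by
    by_contra hc
    push Not at hc
    refine hA1 (top_le_iff.1 fun g _ => ?_)
    rw [← hCA]
    exact mem_centralizer_of_forall_lstab hA.comm fun w => hc w ▸ Subgroup.mem_top g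
  obtain ⟨w₂, hw₂, h12⟩ : ∃ w₂ : A →* ℂˣ, lstab A w₂ ≠ ⊤ ∧ lstab A w₁ ≠ lstab A w₂ := by
    by_contra hc
    push Not at hc
    have hT : lstab A w₁ = A := by
      refine le_antisymm (fun g hg => ?_) (le_lstab w₁)
      rw [← hCA]
      refine mem_centralizer_of_forall_lstab hA.comm fun w => ?_
      by_cases hw : lstab A w = ⊤
      · rw [hw]; exact Subgroup.mem_top g
      · rwa [← hc w hw]
    exact hAp (hT ▸ hidx w₁ hw₁)
  obtain ⟨d, hdtop, hdp, hdne, hd1, hd2⟩ := pair w₁ w₂ hw₁ hw₂ h12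
  have hallw : ∀ (w : A →* ℂˣ) (h : G), ∃ n : ℕ, ∀ a, cjl A h w a = w a * d a ^ n := by
    intro w h
    by_cases hw : lstab A w = ⊤
    · exact ⟨0, fun a => by
        rw [pow_zero, mul_one, mem_lstab.1 (show h ∈ lstab A w by rw [hw]; exact Subgroup.mem_top h)]⟩
    obtain ⟨v, hv, hvw, hdv⟩ : ∃ v : A →* ℂˣ, lstab A v ≠ ⊤ ∧ lstab A v ≠ lstab A w ∧
        ∀ h : G, ∃ n : ℕ, ∀ a, cjl A h v a = v a * d a ^ n := by
      by_cases h1 : lstab A w₁ = lstab A w
      · exact ⟨w₂, hw₂, fun h2 => h12 (h1.trans h2.symm), hd2⟩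
      · exact ⟨w₁, hw₁, h1, hd1⟩
    obtain ⟨d', -, hd'p, hd'ne, hv', hw'⟩ := pair v w hv hw hvw
    obtain ⟨g, hg⟩ : ∃ g, g ∉ lstab A v := by
      by_contra hc
      push Not at hc
      exact hv (top_le_iff.1 fun g _ => hc g)
    obtain ⟨i, hi⟩ := hdv g
    obtain ⟨j, hj⟩ := hv' g
    have hij : ∀ a, d a ^ i = d' a ^ j := fun a => mul_left_cancel ((hi a).symm.trans (hj a))
    have hjp : ¬ p ∣ j := fun hdiv => hg (mem_lstab.2 (MonoidHom.ext fun a => by
      obtain ⟨c, rfl⟩ := hdiv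
      rw [hj, pow_mul, hd'p, one_pow, mul_one]))
    obtain ⟨r, hr⟩ : ∃ r, r * j % p = 1 % p := by
      obtain ⟨r, hr⟩ := Nat.exists_mul_mod_eq_one_of_coprime
        ((hpp.coprime_iff_not_dvd.2 hjp).symm) hpp.one_lt
      exact ⟨r, by rw [mul_comm, hr.2, Nat.one_mod_eq_one.2 hpp.ne_one]⟩
    obtain ⟨n, hn⟩ := hw' h
    refine ⟨i * (r * n), fun a => ?_⟩
    rw [hn, pow_mul (d a) i, hij, ← pow_mul, ← mul_assoc j, mul_comm j r, pow_mul,
      pow_eq_pow_mod (r * j) (hd'p a), hr, ← pow_eq_pow_mod 1 (hd'p a), pow_one]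
  -- elements killed by the difference are central
  have hker : ∀ a : A, d a = 1 → (a : G) ∈ Subgroup.center G := by
    intro a ha
    rw [Subgroup.mem_center_iff]
    intro h
    by_contra hne
    have hx : a⁻¹ * MulAut.conjNormal h a ≠ 1 := fun h1 => hne (by
      have h2 := congrArg Subtype.val (inv_mul_eq_one.1 h1)
      simp only [MulAut.conjNormal_apply] at h2
      calc h * (a : G) = h * a * h⁻¹ * h := by group
        _ = a * h := by rw [← h2])
    obtain ⟨w, hw⟩ := exists_lin_ne (fun a b : A => Subtype.ext (hA.comm a a.2 b b.2)) hx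
    obtain ⟨n, hn⟩ := hallw w h
    apply hw
    rw [map_mul, map_inv, ← cjl_apply, hn, ha, one_pow, mul_one, inv_mul_cancel]
  have hZA := hA.center_le
  have hlt : Nat.card (Subgroup.center G) < Nat.card A := by
    by_contra hle
    have h1 : Subgroup.center G = A := Subgroup.eq_of_le_of_card_ge hZA (not_lt.1 hle)
    refine hA1 (top_le_iff.1 ?_)
    rw [← hCA, ← h1]
    exact fun g _ => Subgroup.mem_centralizer_iff.2 fun z hz =>
      (Subgroup.mem_center_iff.1 hz g).symm
  have hrange : Nat.card d.range ≤ p := by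
    haveI : NeZero p := ⟨hpp.ne_zero⟩
    haveI : Finite d.range := Finite.of_surjective _ d.rangeRestrict_surjective
    have hsub : ∀ x : d.range, (x : ℂˣ) ∈ rootsOfUnity p ℂ := by
      rintro ⟨_, a, rfl⟩
      exact hdp a
    calc Nat.card d.range ≤ Nat.card (rootsOfUnity p ℂ) :=
          Nat.card_le_card_of_injective (fun x => (⟨x, hsub x⟩ : rootsOfUnity p ℂ))
            fun x y h => Subtype.ext (congrArg (fun z : rootsOfUnity p ℂ => (z : ℂˣ)) h)
      _ ≤ p := card_rootsOfUnity ℂ p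
  have hcardle : Nat.card A ≤ p * Nat.card (Subgroup.center G) := by
    rw [← d.ker.card_mul_index, Subgroup.index_ker, mul_comm]
    refine Nat.mul_le_mul hrange ?_
    exact Nat.card_le_card_of_injective
      (fun x => (⟨((x : A) : G), hker x x.2⟩ : Subgroup.center G))
      fun x y h => Subtype.ext (Subtype.ext (congrArg (fun z : Subgroup.center G => (z : G)) h))
  obtain ⟨k, hk⟩ : ∃ k, Nat.card A = p ^ k * Nat.card (Subgroup.center G) := by
    obtain ⟨n, hn⟩ := IsPGroup.iff_card.1 hP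
    rw [← Subgroup.index_eq_card] at hn
    have h1 := Subgroup.relIndex_mul_index hZA
    rw [hn] at h1
    obtain ⟨k, -, hk⟩ := (Nat.dvd_prime_pow hpp).1 (Dvd.intro A.index h1)
    refine ⟨k, ?_⟩
    have h2 := ((Subgroup.center G).subgroupOf A).index_mul_card
    rw [Nat.card_congr (Subgroup.subgroupOfEquivOfLe hZA).toEquiv] at h2
    rw [← h2, ← hk]
    rfl
  have hZpos : 0 < Nat.card (Subgroup.center G) := Nat.card_pos
  have hk1 : k = 1 := by
    have h0 : k ≠ 0 := fun h => by rw [hk, h, pow_zero, one_mul] at hlt; exact lt_irrefl _ hlt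
    have h2 : p ^ k ≤ p ^ 1 := by
      rw [pow_one]
      exact Nat.le_of_mul_le_mul_right (hk ▸ hcardle) hZpos
    have := (Nat.pow_le_pow_iff_right hpp.one_lt).1 h2
    omega
  rw [hk1, pow_one] at hk
  refine ⟨hGA, hk, fun g a ha => ?_, fun a ha haZ => ?_⟩
  · refine hker ⟨g * a * g⁻¹ * a⁻¹,
      A.mul_mem (hA.normal.conj_mem a ha g) (A.inv_mem ha)⟩ ?_
    have e : (⟨g * a * g⁻¹ * a⁻¹, A.mul_mem (hA.normal.conj_mem a ha g) (A.inv_mem ha)⟩ : A) =
        MulAut.conjNormal g ⟨a, ha⟩ * ⟨a, ha⟩⁻¹ := Subtype.ext (by simp)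
    rw [e, map_mul, map_inv, ← cjl_apply,
      mem_lstab.1 (show g ∈ lstab A d by rw [hdtop]; exact Subgroup.mem_top g), mul_inv_cancel]
  · refine le_antisymm (fun c hc => ?_) fun c hc => Subgroup.mem_centralizer_singleton_iff.2
      (hA.comm c hc a ha)
    rw [← hCA]
    set S := Subgroup.centralizer ({c} : Set G) ⊓ A with hS
    have hZS : Subgroup.center G ≤ S := le_inf (Subgroup.center_le_centralizer _) hZA
    have haS : a ∈ S := Subgroup.mem_inf.2 ⟨Subgroup.mem_centralizer_singleton_iff.2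
      ((Subgroup.mem_centralizer_singleton_iff.1 hc).symm), ha⟩
    have h1 : Nat.card (Subgroup.center G) < Nat.card S := by
      by_contra hle
      exact haZ ((Subgroup.eq_of_le_of_card_ge hZS (not_lt.1 hle)).symm ▸ haS)
    obtain ⟨r, hr⟩ := Subgroup.card_dvd_of_le hZS
    have hdS : Nat.card S ∣ Nat.card A := Subgroup.card_dvd_of_le inf_le_right
    rw [hk, hr, mul_comm p, Nat.mul_dvd_mul_iff_left hZpos] at hdS
    rcases (Nat.dvd_prime hpp).1 hdS with hr1 | hr1
    · rw [hr, hr1, mul_one] at h1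
      exact absurd h1 (lt_irrefl _)
    · have hSA : S = A := Subgroup.eq_of_le_of_card_ge inf_le_right (by
        rw [hk, hr, hr1, mul_comm])
      exact Subgroup.mem_centralizer_iff.2 fun b hb => by
        have := (Subgroup.mem_inf.1 (hSA.symm ▸ hb : b ∈ S)).1
        exact Subgroup.mem_centralizer_singleton_iff.1 this

end

end Cfsg.Agent.CharDeg
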