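import Cfsg.Agent.CharDeg.Basic
import Cfsg.Agent.CharDeg.Tools
import Cfsg.Agent.CharInd.Kernel
import Cfsg.Agent.SmallGroups.OrderPBlock
import Cfsg.Agent.BlkChar.PModular
import Cfsg.Agent.PSolv.Basic

/-!
A group all of whose degrees are less than the prime `p` has a normal abelian Sylow `p`-subgroup.
-/

set_option autoImplicit false
set_option linter.style.haveILetI false

noncomputable section

namespace Cfsg.Agent.CharDeg

open Cfsg
open scoped ComplexConjugate
open Cfsg.Agent.Char (irr_charDegree_spec)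

universe u
variable {G : Type u} [Group G]

/-- For an abelian subgroup, `|P| χ(1)` is at most the sum of the squared norms on it. -/
theorem card_mul_deg_le_sum [Finite G] (P : Subgroup G) [Fintype P]
    (hP : ∀ a ∈ P, ∀ b ∈ P, a * b = b * a) (χ : IrrCharacter G) :
    (Nat.card P : ℝ) * charDegree (χ : G → ℂ) ≤ ∑ h : P, ‖(χ : G → ℂ) h‖ ^ 2 := by
  classical
  have hres := CharInd.isCharacter_res P (Char.isCharacter_of_irr χ.2)
  obtain ⟨m, hm, hm'⟩ := Char.isCharacter_exists_coeff hres
  have hd : ∑ ξ : IrrCharacter P, m ξ = charDegree (χ : G → ℂ) := by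
    have h1 := congrFun hm 1
    simp only [OneMemClass.coe_one, one_apply, Finset.sum_apply, Pi.smul_apply, nsmul_eq_mul,
      deg_eq_one_of_comm (fun a b : P => Subtype.ext (hP a a.2 b b.2)), Nat.cast_one, mul_one,
      Pi.mul_apply, Pi.natCast_apply] at h1
    exact_mod_cast h1.symm
  have h2 : classInner (fun h : P => (χ : G → ℂ) h) (fun h : P => (χ : G → ℂ) h) =
      ((∑ ξ : IrrCharacter P, m ξ * m ξ : ℕ) : ℂ) := by
    conv_lhs => arg 1; rw [hm]
    rw [Char.classInner_sum_left]
    push_cast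
    refine Finset.sum_congr rfl fun ξ _ => ?_
    rw [← Nat.cast_smul_eq_nsmul ℂ, Char.classInner_smul_left, ← CharInd.classInner_swap, hm',
      Complex.conj_natCast]
  have h3 : ((∑ h : P, ‖(χ : G → ℂ) h‖ ^ 2 : ℝ) : ℂ) =
      (((Nat.card P * ∑ ξ : IrrCharacter P, m ξ * m ξ : ℕ) : ℝ) : ℂ) := by
    rw [Complex.ofReal_natCast, Nat.cast_mul, ← h2, CharInd.classInner_congr_card]
    push_cast
    exact Finset.sum_congr rfl fun g _ => (Complex.mul_conj' _).symm
  rw [Complex.ofReal_inj.1 h3, Nat.cast_mul, ← hd]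
  refine mul_le_mul_of_nonneg_left ?_ (Nat.cast_nonneg _)
  exact_mod_cast Finset.sum_le_sum fun ξ _ => Nat.le_mul_self (m ξ)

/-- Summing over all characters the squared norms on a subgroup. -/
theorem sum_sum_norm_sq [Fintype G] (P : Subgroup G) [Fintype P] :
    ∑ χ : IrrCharacter G, ∑ h : P, ‖(χ : G → ℂ) h‖ ^ 2 =
      ∑ h : P, (Nat.card (Subgroup.centralizer ({(h : G)} : Set G)) : ℝ) := by
  classical
  rw [Finset.sum_comm]
  refine Finset.sum_congr rfl fun h _ => Complex.ofReal_injective ?_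
  have h1 := Char.sum_irr_mul_conj (h : G) (h : G)
  rw [if_pos (IsConj.refl _)] at h1
  rw [Complex.ofReal_natCast, ← h1]
  push_cast
  exact Finset.sum_congr rfl fun χ _ => (Complex.mul_conj' _).symm

/-- If a character sums to zero over the central subgroup `P`, it sums to zero over each coset. -/
theorem sum_mul_eq_zero_of_sum_eq_zero [Finite G] (P : Subgroup G) [Fintype P] {χ : G → ℂ}
    (hχ : IsCharacter G χ) (h0 : ∑ x : P, χ x = 0) (y : G) : ∑ x : P, χ ((x : G) * y) = 0 := by
  obtain ⟨n, ρ, rfl⟩ := hχ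
  let E : Module.End ℂ (Fin n → ℂ) := (Nat.card P : ℂ)⁻¹ • ∑ x : P, ρ (x : G)
  have hE : IsIdempotentElem E := by
    show E * E = E
    have h1 : (∑ x : P, ρ (x : G)) * (∑ x : P, ρ (x : G)) =
        (Nat.card P : ℂ) • ∑ x : P, ρ (x : G) := by
      rw [Finset.sum_mul, Finset.sum_congr rfl (g := fun _ => ∑ x : P, ρ (x : G)) fun x _ => ?_,
        Finset.sum_const, Finset.card_univ, ← Nat.card_eq_fintype_card, Nat.cast_smul_eq_nsmul]
      rw [Finset.mul_sum]
      refine Fintype.sum_equiv (Equiv.mulLeft x) _ _ fun z => ?_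
      show ρ (x : G) * ρ (z : G) = ρ ((x * z : P) : G)
      rw [← map_mul, Subgroup.coe_mul]
    simp only [E, smul_mul_smul_comm, h1, smul_smul]
    congr 1
    rw [mul_assoc, inv_mul_cancel₀ (Nat.cast_ne_zero.2 Nat.card_pos.ne'), mul_one]
  have hz : E = 0 := by
    refine LinearMap.IsIdempotentElem.eq_zero_of_trace_eq_zero hE ?_
    simp only [E, map_smul, map_sum]
    rw [show (∑ x : P, LinearMap.trace ℂ _ (ρ (x : G))) = 0 from h0, smul_zero]
  have hsum : ∑ x : P, ρ (x : G) = 0 := by
    have := congrArg (fun f => (Nat.card P : ℂ) • f) hz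
    simpa [E, smul_smul, mul_inv_cancel₀ (Nat.cast_ne_zero.2 (Nat.card_pos (α := P)).ne' : (Nat.card P : ℂ) ≠ 0)] using this
  show ∑ x : P, LinearMap.trace ℂ _ (ρ ((x : G) * y)) = 0
  rw [← map_sum]
  simp only [map_mul, ← Finset.sum_mul, hsum, zero_mul, map_zero]

/-- No nonabelian simple group has all degrees below a prime divisor of its order. -/
theorem false_of_simple_small_degrees [Fintype G] [IsSimpleGroup G]
    (hna : ¬ ∀ a b : G, a * b = b * a) {p : ℕ} [hp : Fact p.Prime] (hpG : p ∣ Nat.card G)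
    (hdeg : ∀ χ : IrrCharacter G, charDegree (χ : G → ℂ) < p)
    (hsub : ∀ H : Subgroup G, H ≠ ⊤ → ∀ Q : Sylow p H,
      (Q : Subgroup H).Normal ∧ ∀ a ∈ (Q : Subgroup H), ∀ b ∈ (Q : Subgroup H), a * b = b * a) :
    False := by
  classical
  have hpp : p.Prime := Fact.out
  have hodd : p ≠ 2 := by
    rintro rfl
    exact hna (comm_of_forall_linear fun χ => by
      have := deg_pos χ; have := hdeg χ; omega)
  have hp3 : 3 ≤ p := by have := hpp.two_le; omega
  have hZ : Subgroup.center G = ⊥ :=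
    ((inferInstance : (Subgroup.center G).Normal).eq_bot_or_eq_top).resolve_right fun h =>
      hna fun a b => Subgroup.mem_center_iff.1 (h ▸ Subgroup.mem_top b) a
  obtain ⟨P⟩ := (inferInstance : Nonempty (Sylow p G))
  have hPne : (P : Subgroup G) ≠ ⊥ := P.ne_bot_of_dvd_card hpG
  have hPtop : (P : Subgroup G) ≠ ⊤ := by
    intro h
    haveI : Nontrivial G := inferInstance
    have hG : IsPGroup p G := (h ▸ P.2 : IsPGroup p (⊤ : Subgroup G)).of_equiv Subgroup.topEquiv
    haveI := hG.center_nontrivial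
    exact (Subgroup.nontrivial_iff_ne_bot _).1 ‹_› hZ
  have hPc : ∀ a ∈ (P : Subgroup G), ∀ b ∈ (P : Subgroup G), a * b = b * a := by
    intro a ha b hb
    obtain ⟨-, hc⟩ := hsub _ hPtop (P.subtype le_rfl)
    exact congrArg Subtype.val (hc ⟨a, ha⟩ (by simpa [Subgroup.mem_subgroupOf] using ha) ⟨b, hb⟩
      (by simpa [Subgroup.mem_subgroupOf] using hb))
  set N := Subgroup.normalizer ((P : Subgroup G) : Set G) with hN
  have hNtop : N ≠ ⊤ := fun h =>
    ((Subgroup.normalizer_eq_top_iff.1 h).eq_bot_or_eq_top).elim hPne hPtop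
  have hCN : ∀ x ∈ (P : Subgroup G), x ≠ 1 → Subgroup.centralizer ({x} : Set G) ≤ N := by
    intro x hx hx1
    have hCtop : Subgroup.centralizer ({x} : Set G) ≠ ⊤ := fun h => hx1 (by
      have : x ∈ Subgroup.center G := Subgroup.mem_center_iff.2 fun g =>
        Subgroup.mem_centralizer_singleton_iff.1 (h ▸ Subgroup.mem_top g)
      rwa [hZ, Subgroup.mem_bot] at this)
    have hle : (P : Subgroup G) ≤ Subgroup.centralizer ({x} : Set G) := fun a ha =>
      Subgroup.mem_centralizer_singleton_iff.2 (hPc a ha x hx)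
    obtain ⟨hn, -⟩ := hsub _ hCtop (P.subtype hle)
    exact (Subgroup.normal_subgroupOf_iff_le_normalizer hle).1 hn
  -- the index of the normaliser
  have hi : p + 1 ≤ N.index := by
    have h1 : N.index ≡ 1 [MOD p] := P.card_eq_index_normalizer ▸ card_sylow_modEq_one p G
    have h2 : N.index ≠ 1 := fun h => hNtop (Subgroup.index_eq_one.1 h)
    have h3 : 0 < N.index := Nat.pos_of_ne_zero Subgroup.index_ne_zero_of_finite
    have h4 : p ∣ N.index - 1 := (Nat.modEq_iff_dvd' h3).1 h1.symm
    have := Nat.le_of_dvd (by omega) h4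
    omega
  letI := Fintype.ofFinite (P : Subgroup G)
  obtain ⟨k, hk⟩ := IsPGroup.iff_card.1 P.2
  have hk0 : k ≠ 0 := fun h => hPne (Subgroup.card_eq_one.1 (by rw [hk, h, pow_zero]))
  -- the counting inequality
  set d : IrrCharacter G → ℕ := fun χ => charDegree (χ : G → ℂ) with hd
  have hsq : ∑ χ : IrrCharacter G, d χ ^ 2 = Nat.card G := by
    have := Char.sum_irr_degree_sq (G := G)
    simp only [one_apply] at this
    exact_mod_cast this
  have hsmall : (Nat.card G : ℝ) ≤ ((p : ℝ) - 1) * ∑ χ : IrrCharacter G, (d χ : ℝ) := by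
    rw [← hsq, Finset.mul_sum]
    push_cast
    refine Finset.sum_le_sum fun χ _ => ?_
    have h1 : (d χ : ℝ) + 1 ≤ p := by exact_mod_cast (hdeg χ : d χ < p)
    have h2 : (0 : ℝ) ≤ d χ := Nat.cast_nonneg _
    nlinarith
  have hupper : (Nat.card (P : Subgroup G) : ℝ) * ∑ χ : IrrCharacter G, (d χ : ℝ) ≤
      Nat.card G + ((Nat.card (P : Subgroup G) : ℝ) - 1) * Nat.card N := by
    rw [Finset.mul_sum]
    refine (Finset.sum_le_sum fun χ _ => card_mul_deg_le_sum (P : Subgroup G) hPc χ).trans ?_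
    rw [sum_sum_norm_sq, ← Finset.add_sum_erase _ _ (Finset.mem_univ (1 : (P : Subgroup G)))]
    refine add_le_add ?_ ?_
    · exact_mod_cast Subgroup.card_le_card_group _
    · refine (Finset.sum_le_card_nsmul _ _ (Nat.card N : ℝ) fun h hh => ?_).trans_eq ?_
      · exact_mod_cast Subgroup.card_le_of_le
          (hCN h h.2 fun h1 => (Finset.mem_erase.1 hh).1 (Subtype.ext h1))
      · rw [nsmul_eq_mul, Finset.card_erase_of_mem (Finset.mem_univ _), Finset.card_univ,
          ← Nat.card_eq_fintype_card, Nat.cast_sub Nat.card_pos, Nat.cast_one]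
  have hk1 : k = 1 := by
    by_contra hk1
    have hbig : p ^ 2 ≤ p ^ k := Nat.pow_le_pow_right hpp.pos (by omega)
    have hPR : ((p : ℝ)) ^ 2 ≤ (Nat.card (P : Subgroup G) : ℝ) := by rw [hk]; exact_mod_cast hbig
    have hiR : ((p : ℝ) + 1) ≤ N.index := by exact_mod_cast hi
    have hG : (Nat.card G : ℝ) = Nat.card N * N.index := by exact_mod_cast N.card_mul_index.symm
    have hNpos : (0 : ℝ) < Nat.card N := by exact_mod_cast Nat.card_pos
    have hpR : (3 : ℝ) ≤ p := by exact_mod_cast hp3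
    set q : ℝ := (Nat.card (P : Subgroup G) : ℝ)
    set S : ℝ := ∑ χ : IrrCharacter G, (d χ : ℝ)
    set i : ℝ := (N.index : ℝ)
    rw [hG] at hsmall hupper
    have hq0 : (0 : ℝ) ≤ q := by positivity
    have h1 : q * ((Nat.card N : ℝ) * i) ≤
        ((p : ℝ) - 1) * ((Nat.card N : ℝ) * i + (q - 1) * Nat.card N) := by
      calc q * ((Nat.card N : ℝ) * i) ≤ q * (((p : ℝ) - 1) * S) :=
            mul_le_mul_of_nonneg_left hsmall hq0
        _ = ((p : ℝ) - 1) * (q * S) := by ring
        _ ≤ _ := mul_le_mul_of_nonneg_left hupper (by linarith)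
    have h2 : (Nat.card N : ℝ) * (q * i) ≤
        (Nat.card N : ℝ) * (((p : ℝ) - 1) * (i + (q - 1))) := by linarith
    have h3 := le_of_mul_le_mul_left h2 hNpos
    nlinarith [mul_nonneg (sub_nonneg.2 hiR) (show (0 : ℝ) ≤ q - p + 1 by nlinarith)]
  rw [hk1, pow_one] at hk
  -- the principal block
  obtain ⟨M, hM⟩ := BlkChar.exists_isPModular p hpp
  set C := Subgroup.centralizer ((P : Subgroup G) : Set G) with hC
  obtain ⟨X, Y, sgn, ε, hdisj, hB, hX, hY, htrivX, hsgn1, hε, hXd, hYd, hYsum, hrel⟩ :=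
    SmallGroups.OrderP.exists_block_data hM P hk (C.relIndex N) rfl
  set e := C.relIndex N with he
  have hlin : ∀ χ : IrrCharacter G, d χ = 1 → χ = Char.trivialIrr G := by
    intro χ h1
    have hcom : commutator G = ⊤ :=
      ((inferInstance : (commutator G).Normal).eq_bot_or_eq_top).resolve_left fun h =>
        hna fun a b => Subgroup.mem_center_iff.1
          ((commutator_eq_bot_iff_center_eq_top _).1 h ▸ Subgroup.mem_top b) a
    refine Subtype.ext (funext fun g => ?_)
    have h2 := Char.linear_eq_one_of_mem_commutator (Char.isCharacter_of_irr χ.2)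
      (by rw [one_apply]; exact_mod_cast h1) (hcom ▸ Subgroup.mem_top g)
    exact h2
  have hXdeg : ∀ χ ∈ X, χ ≠ Char.trivialIrr G → d χ = p - 1 ∧ sgn χ = -1 := by
    intro χ hχ hne
    obtain ⟨hs, hdvd, -⟩ := hXd χ hχ
    have h1 : d χ ≠ 1 := fun h => hne (hlin χ h)
    have h2 := deg_pos χ
    have h3 := hdeg χ
    simp only [hd] at h1 ⊢
    rcases hs with h | h <;> rw [h] at hdvd
    · exfalso
      have := Int.le_of_dvd (by omega) hdvd
      omega
    · refine ⟨?_, h⟩
      have := Int.le_of_dvd (by omega) hdvd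
      omega
  have he2 : 2 ≤ e := by
    have he0 : e ≠ 0 := fun h => by
      rw [← hX, Finset.card_eq_zero] at h
      exact (h ▸ Finset.notMem_empty _ : Char.trivialIrr G ∉ X) htrivX
    by_contra hlt
    have hle : N ≤ C := Subgroup.relIndex_eq_one.1 (by omega)
    have hker := MonoidHom.not_dvd_card_ker_transferSylow P hle
    have hbot : (MonoidHom.transferSylow P hle).ker = ⊥ :=
      ((inferInstance : (MonoidHom.transferSylow P hle).ker.Normal).eq_bot_or_eq_top).resolve_right
        fun h => hker (by rw [h, Subgroup.card_top]; exact hpG)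
    refine hna fun a b => (MonoidHom.ker_eq_bot_iff _).1 hbot (Subtype.ext ?_)
    rw [map_mul, map_mul, Subgroup.coe_mul, Subgroup.coe_mul]
    exact hPc _ (Subtype.coe_prop _) _ (Subtype.coe_prop _)
  have hYne : Y.Nonempty := by
    rw [← Finset.card_pos, hY]
    have hedvd : e ≤ p - 1 := by
      have h1 : X.card + Y.card = (X ∪ Y).card := (Finset.card_union_of_disjoint hdisj).symm
      rcases Nat.eq_zero_or_pos Y.card with h0 | h0
      · exfalso
        obtain ⟨x, hx⟩ := Subgroup.ne_bot_iff_exists_ne_one.1 hPne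
        have := hYsum x x.2 fun h => hx (Subtype.ext h)
        rw [Finset.card_eq_zero.1 h0, Finset.sum_empty] at this
        rcases hε with h | h <;> simp [h] at this
      · rw [hY] at h0
        by_contra hlt
        rw [Nat.div_eq_of_lt (by omega)] at h0
        omega
    exact Nat.div_pos hedvd (by omega)
  obtain ⟨θ₀, hθ₀⟩ := hYne
  have hXsum : ∑ χ ∈ X, sgn χ * (d χ : ℤ) = 1 - ((e : ℤ) - 1) * ((p : ℤ) - 1) := by
    rw [← Finset.add_sum_erase _ _ htrivX, Finset.sum_congr rfl
      (g := fun _ => -((p : ℤ) - 1)) fun χ hχ => ?_]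
    · rw [Finset.sum_const, Finset.card_erase_of_mem htrivX, hX, nsmul_eq_mul, hsgn1,
        Nat.cast_sub (by omega : 1 ≤ e), Nat.cast_one]
      simp only [hd, show charDegree ((Char.trivialIrr G : IrrCharacter G) : G → ℂ) = 1 by
        simp [charDegree, show ((Char.trivialIrr G : IrrCharacter G) : G → ℂ) 1 = 1 from rfl],
        Nat.cast_one]
      ring
    · obtain ⟨h1, h2⟩ := Finset.mem_erase.1 hχ
      obtain ⟨h3, h4⟩ := hXdeg χ h2 h1
      rw [h3, h4, Nat.cast_sub (by omega : 1 ≤ p), Nat.cast_one]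
      ring
  have hrel1 : ∀ θ ∈ Y, ε * (d θ : ℤ) = 1 - ((e : ℤ) - 1) * ((p : ℤ) - 1) := by
    intro θ hθ
    rw [← hXsum]
    have h := hrel θ hθ 1 (by rw [orderOf_one]; exact hpp.not_dvd_one)
    simp only [one_apply] at h
    exact_mod_cast h
  have hee : e = 2 ∧ ε = -1 := by
    have h := hrel1 θ₀ hθ₀
    have h1 := deg_pos θ₀
    have h2 := hdeg θ₀
    have h3 : ((1 : ℤ)) * ((p : ℤ) - 1) ≤ ((e : ℤ) - 1) * ((p : ℤ) - 1) :=
      mul_le_mul_of_nonneg_right (by omega) (by omega)
    rcases hε with rfl | rfl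
    · simp only [hd] at h; omega
    · refine ⟨?_, rfl⟩
      by_contra hne
      have h4 : ((2 : ℤ)) * ((p : ℤ) - 1) ≤ ((e : ℤ) - 1) * ((p : ℤ) - 1) :=
        mul_le_mul_of_nonneg_right (by omega) (by omega)
      simp only [hd] at h; omega
  obtain ⟨he2', hεv⟩ := hee
  have hdθ : ∀ θ ∈ Y, d θ = p - 2 := by
    intro θ hθ
    have h := hrel1 θ hθ
    rw [hεv, he2'] at h
    push_cast at h
    omega
  obtain ⟨χ₁, hχ₁X, hχ₁⟩ : ∃ χ ∈ X, χ ≠ Char.trivialIrr G :=
    Finset.exists_mem_ne (by omega) _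
  obtain ⟨hd₁, hs₁⟩ := hXdeg χ₁ hχ₁X hχ₁
  -- the centraliser of `P` is `P`
  have hfaith : ∀ g, (χ₁ : G → ℂ) g = (χ₁ : G → ℂ) 1 → g = 1 := by
    intro g hg
    obtain ⟨K, hKn, hK⟩ := CharInd.exists_charKer (Char.isCharacter_of_irr χ₁.2)
    rcases hKn.eq_bot_or_eq_top with h | h
    · exact Subgroup.mem_bot.1 (h ▸ (hK g).2 hg)
    · exfalso
      obtain ⟨β, hβ, hval⟩ := Char.irr_exists_descend χ₁.2 K fun n hn => (hK n).1 hn
      have h1 : charDegree (χ₁ : G → ℂ) = 1 := by
        rw [charDegree, hval, QuotientGroup.mk_one, ← charDegree]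
        haveI : Subsingleton (G ⧸ K) := by rw [h]; exact QuotientGroup.subsingleton_quotient_top
        exact deg_eq_one_of_comm (fun a b => Subsingleton.elim _ _) ⟨β, hβ⟩
      exact hχ₁ (hlin χ₁ h1)
  have hPsum : ∑ x : (P : Subgroup G), (χ₁ : G → ℂ) x = 0 := by
    rw [← Finset.add_sum_erase _ _ (Finset.mem_univ (1 : (P : Subgroup G))),
      Finset.sum_congr rfl (g := fun _ => (-1 : ℂ)) fun x hx => ?_]
    · rw [Finset.sum_const, Finset.card_erase_of_mem (Finset.mem_univ _), Finset.card_univ,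
        ← Nat.card_eq_fintype_card, hk, OneMemClass.coe_one, one_apply, nsmul_eq_mul]
      simp only [hd] at hd₁
      rw [hd₁]
      ring
    · rw [(hXd χ₁ hχ₁X).2.2 x x.2 fun h => (Finset.mem_erase.1 hx).1 (Subtype.ext h), hs₁]
      simp
  have hreg : ∀ y ∈ C, ¬ p ∣ orderOf y → y = 1 := by
    intro y hy hyp
    refine hfaith y ?_
    have h := sum_mul_eq_zero_of_sum_eq_zero (P : Subgroup G) (Char.isCharacter_of_irr χ₁.2) hPsum y
    rw [← Finset.add_sum_erase _ _ (Finset.mem_univ (1 : (P : Subgroup G))),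
      Finset.sum_congr rfl (g := fun _ => (-1 : ℂ)) fun x hx => ?_] at h
    · rw [Finset.sum_const, Finset.card_erase_of_mem (Finset.mem_univ _), Finset.card_univ,
        ← Nat.card_eq_fintype_card, hk, OneMemClass.coe_one, one_mul, nsmul_eq_mul] at h
      simp only [hd] at hd₁
      rw [one_apply, hd₁]
      linear_combination h
    · have hx1 : (x : G) ≠ 1 := fun h => (Finset.mem_erase.1 hx).1 (Subtype.ext h)
      rw [SmallGroups.OrderP.apply_mul_regular hM P hk ((hB χ₁).2 (Or.inl hχ₁X)) x.2 hx1 hy hyp,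
        (hXd χ₁ hχ₁X).2.2 x x.2 hx1, hs₁]
      simp
  have hCp : IsPGroup p C := by
    rintro ⟨c, hc⟩
    refine ⟨1, Subtype.ext ?_⟩
    rw [pow_one, Subgroup.coe_pow, Subgroup.coe_one]
    refine hreg _ (C.pow_mem hc p) fun hdvd => ?_
    have ho := orderOf_pow' c hpp.ne_zero
    have hdc : p ∣ orderOf c := by
      rw [ho] at hdvd
      exact hdvd.trans (Nat.div_dvd_of_dvd (Nat.gcd_dvd_left _ _))
    rw [ho, Nat.gcd_eq_right hdc] at hdvd
    have h2 : p ^ 2 ∣ Nat.card G := by
      rw [sq]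
      exact (Nat.mul_dvd_of_dvd_div hdc hdvd).trans (orderOf_dvd_natCard c)
    have h3 := P.pow_dvd_card_of_pow_dvd_card h2
    rw [hk, sq] at h3
    have := Nat.le_of_dvd hpp.pos h3
    nlinarith
  have hCP : C = (P : Subgroup G) :=
    P.is_maximal' hCp fun a ha => Subgroup.mem_centralizer_iff.2 fun b hb => hPc b hb a ha
  -- the whole character table
  set φ : IrrCharacter G → ℝ := fun χ => (p : ℝ) * d χ - (d χ : ℝ) ^ 2 with hφ
  have hφpos : ∀ χ, 0 < φ χ := fun χ => by
    have h1 : (d χ : ℝ) + 1 ≤ p := by exact_mod_cast (hdeg χ : d χ < p)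
    have h2 : (1 : ℝ) ≤ d χ := by exact_mod_cast deg_pos χ
    simp only [hφ]
    nlinarith
  have htot : ∑ χ : IrrCharacter G, φ χ ≤ ((p : ℝ) - 1) * p := by
    have h1 : ∑ χ : IrrCharacter G, ((p : ℝ) * d χ) ≤ Nat.card G + ((p : ℝ) - 1) * p := by
      refine (Finset.sum_le_sum fun χ _ =>
        hk ▸ card_mul_deg_le_sum (P : Subgroup G) hPc χ).trans ?_
      rw [sum_sum_norm_sq, ← Finset.add_sum_erase _ _ (Finset.mem_univ (1 : (P : Subgroup G)))]
      refine add_le_add ?_ ?_
      · exact_mod_cast Subgroup.card_le_card_group _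
      · refine (Finset.sum_le_card_nsmul _ _ (p : ℝ) fun h hh => ?_).trans_eq ?_
        · have hne : (h : G) ≠ 1 := fun h1 => (Finset.mem_erase.1 hh).1 (Subtype.ext h1)
          have hle : Subgroup.centralizer ({(h : G)} : Set G) ≤ C := by
            intro c hc
            have hz : Subgroup.zpowers (h : G) = P := by
              refine Subgroup.eq_of_le_of_card_ge (Subgroup.zpowers_le.2 h.2) ?_
              rw [hk, Nat.card_zpowers]
              have h2 : orderOf (h : G) ∣ p :=
                (Subgroup.orderOf_dvd_natCard _ h.2).trans (dvd_of_eq hk)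
              rw [((Nat.dvd_prime hpp).1 h2).resolve_left (by simpa using hne)]
            refine Subgroup.mem_centralizer_iff.2 fun b hb => ?_
            rw [SetLike.mem_coe, ← hz, Subgroup.mem_zpowers_iff] at hb
            obtain ⟨j, rfl⟩ := hb
            have hc' : Commute c (h : G) := Subgroup.mem_centralizer_singleton_iff.1 hc
            exact (hc'.zpow_right j).eq.symm
          exact_mod_cast (Subgroup.card_le_of_le (hle.trans hCP.le)).trans hk.le
        · rw [nsmul_eq_mul, Finset.card_erase_of_mem (Finset.mem_univ _), Finset.card_univ,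
            ← Nat.card_eq_fintype_card, hk, Nat.cast_sub hpp.one_le, Nat.cast_one]
    have h2 : ∑ χ : IrrCharacter G, ((d χ : ℝ)) ^ 2 = Nat.card G := by exact_mod_cast hsq
    rw [Finset.sum_sub_distrib, h2]
    linarith
  have hdX : ∑ χ ∈ X, φ χ = ((p : ℝ) - 1) + ((p : ℝ) - 1) := by
    rw [← Finset.add_sum_erase _ _ htrivX, Finset.sum_congr rfl
      (g := fun _ => (p : ℝ) - 1) fun χ hχ => ?_]
    · rw [Finset.sum_const, Finset.card_erase_of_mem htrivX, hX, he2', show 2 - 1 = 1 from rfl, one_smul]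
      simp only [hφ, hd, show charDegree ((Char.trivialIrr G : IrrCharacter G) : G → ℂ) = 1 by
        simp [charDegree, show ((Char.trivialIrr G : IrrCharacter G) : G → ℂ) 1 = 1 from rfl]]
      push_cast
      ring
    · obtain ⟨h1, h2⟩ := Finset.mem_erase.1 hχ
      simp only [hφ, (hXdeg χ h2 h1).1, Nat.cast_sub hpp.one_le, Nat.cast_one]
      ring
  have ht : 2 * Y.card = p - 1 := by
    rw [hY, he2']
    rcases hpp.eq_two_or_odd' with h | h
    · exact absurd h hodd
    · obtain ⟨r, rfl⟩ := h; omega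
  have hdY : ∑ χ ∈ Y, φ χ = ((p : ℝ) - 1) * ((p : ℝ) - 2) := by
    have ht' : 2 * (Y.card : ℝ) = (p : ℝ) - 1 := by
      rw [eq_sub_iff_add_eq]; exact_mod_cast (by omega : 2 * Y.card + 1 = p)
    rw [Finset.sum_congr rfl (g := fun _ => 2 * ((p : ℝ) - 2)) fun χ hχ => ?_, Finset.sum_const,
      nsmul_eq_mul, ← ht']
    · ring
    · simp only [hφ, hdθ χ hχ, Nat.cast_sub hpp.two_le, Nat.cast_ofNat]
      ring
  have hall : ∀ χ : IrrCharacter G, χ ∈ X ∪ Y := by
    intro χ
    by_contra hχ
    have h1 : φ χ + ∑ ξ ∈ X ∪ Y, φ ξ ≤ ∑ ξ : IrrCharacter G, φ ξ := by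
      rw [← Finset.sum_insert hχ]
      exact Finset.sum_le_univ_sum_of_nonneg fun ξ => (hφpos ξ).le
    rw [Finset.sum_union hdisj, hdX, hdY] at h1
    have := hφpos χ
    nlinarith
  have hcard : Nat.card G = 1 + (p - 1) ^ 2 + Y.card * (p - 2) ^ 2 := by
    rw [← hsq, show (Finset.univ : Finset (IrrCharacter G)) = X ∪ Y from
      (Finset.eq_univ_iff_forall.2 hall).symm, Finset.sum_union hdisj,
      ← Finset.add_sum_erase _ _ htrivX,
      Finset.sum_congr rfl (s₂ := X.erase (Char.trivialIrr G)) (g := fun _ => (p - 1) ^ 2) fun χ hχ => by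
        obtain ⟨h1, h2⟩ := Finset.mem_erase.1 hχ
        rw [(hXdeg χ h2 h1).1],
      Finset.sum_congr rfl (s₂ := Y) (g := fun _ => (p - 2) ^ 2) fun χ hχ => by rw [hdθ χ hχ]]
    rw [Finset.sum_const, Finset.sum_const, Finset.card_erase_of_mem htrivX, hX, he2']
    simp [hd, charDegree, show ((Char.trivialIrr G : IrrCharacter G) : G → ℂ) 1 = 1 from rfl]
  have hdvd : p - 2 ∣ 4 := by
    have h1 : p - 2 ∣ Nat.card G := hdθ θ₀ hθ₀ ▸ BlkChar.irr_charDegree_dvd_card θ₀
    obtain ⟨r, hr⟩ : ∃ r, p = r + 2 := ⟨p - 2, by omega⟩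
    subst hr
    have h2 : r ∣ 2 * Nat.card G := by simpa using h1.trans (dvd_mul_left _ 2)
    rw [hcard, show 2 * (1 + (r + 2 - 1) ^ 2 + Y.card * (r + 2 - 2) ^ 2) =
      4 + r * (2 * r + 4 + 2 * Y.card * r) by
        rw [show r + 2 - 1 = r + 1 by omega, show r + 2 - 2 = r by omega]; ring] at h2
    simpa using (Nat.dvd_add_left (dvd_mul_right r _)).1 h2
  have hp3' : p = 3 := by
    have h1 := Nat.le_of_dvd (by norm_num) hdvd
    rcases hpp.eq_two_or_odd' with h | h
    · exact absurd h hodd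
    · obtain ⟨r, hr⟩ := h
      rcases (show r = 1 ∨ r = 2 by omega) with rfl | rfl
      · omega
      · subst hr; norm_num at hdvd
  subst hp3'
  have hY1 : Y.card = 1 := by omega
  rw [hY1] at hcard
  norm_num at hcard
  have hNidx : N.index ∣ 2 := by
    have h1 : Nat.card (P : Subgroup G) * (P : Subgroup G).index = 6 := by
      rw [Subgroup.card_mul_index]; simpa [Nat.card_eq_fintype_card] using hcard
    rw [hk] at h1
    have h2 : (P : Subgroup G).index = 2 := by omega
    exact h2 ▸ Subgroup.index_dvd_of_le Subgroup.le_normalizer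
  have := Nat.le_of_dvd (by norm_num) hNidx
  omega

/-- All degrees below `p` force `p`-solubility. -/
theorem isPSolvable_of_small_degrees {p : ℕ} [Fact p.Prime] : ∀ (n : ℕ) (G : Type u) [Group G]
    [Finite G], Nat.card G = n → (∀ χ : IrrCharacter G, charDegree (χ : G → ℂ) < p) →
    IsPSolvable p G := by
  intro n
  induction n using Nat.strong_induction_on with
  | _ n ih =>
    intro G _ _ hn hdeg
    classical
    by_cases hcop : ¬ p ∣ Nat.card G
    · exact PSolv.isPSolvable_of_coprime ((Fact.out : p.Prime).coprime_iff_not_dvd.2 hcop).symm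
    rw [not_not] at hcop
    by_cases hab : ∀ a b : G, a * b = b * a
    · letI : CommGroup G := { (inferInstance : Group G) with mul_comm := hab }
      exact PSolv.isPSolvable_of_isSolvable inferInstance
    haveI : Nontrivial G := by
      by_contra h
      haveI := not_nontrivial_iff_subsingleton.1 h
      exact hab fun a b => Subsingleton.elim _ _
    have hsubdeg : ∀ H : Subgroup G, ∀ ψ : IrrCharacter H, charDegree (ψ : H → ℂ) < p := by
      intro H ψ
      letI := Fintype.ofFinite G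
      letI := Fintype.ofFinite H
      obtain ⟨χ, hχ⟩ := CharGraph.exists_irr_over H ψ
      have hres := CharInd.isCharacter_res H (Char.isCharacter_of_irr χ.2)
      obtain ⟨k, hk⟩ := Char.isCharacter_classInner_nat hres ψ
      have hk0 : 0 < k := Nat.pos_of_ne_zero fun h => hχ (by rw [hk, h, Nat.cast_zero])
      obtain ⟨r, hr⟩ := Char.isCharacter_one_nat (Char.isCharacter_sub_constituent hres hk0 hk)
      rw [Pi.sub_apply, OneMemClass.coe_one, one_apply, one_apply] at hr
      have h1 : ((charDegree (χ : G → ℂ) : ℕ) : ℂ) = ((r + charDegree (ψ : H → ℂ) : ℕ) : ℂ) := by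
        push_cast
        linear_combination hr
      have h2 : charDegree (χ : G → ℂ) = r + charDegree (ψ : H → ℂ) := by exact_mod_cast h1
      have := hdeg χ
      omega
    by_cases hsimple : IsSimpleGroup G
    · exfalso
      letI := Fintype.ofFinite G
      refine false_of_simple_small_degrees hab hcop hdeg fun H hH Q => ?_
      have hlt : Nat.card H < n := hn ▸ lt_of_le_of_ne (Subgroup.card_le_card_group H)
        fun h => hH ((Subgroup.card_eq_iff_eq_top H).1 h)
      have hps := ih _ hlt H rfl (hsubdeg H)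
      obtain ⟨R, hRn, hRc, hRp, hRi⟩ := (normal_abelian_sylow_iff hps).2 fun ψ h =>
        (Nat.le_of_dvd (deg_pos ψ) h).not_gt (hsubdeg H ψ)
      haveI := hRn
      haveI : Subsingleton (Sylow p H) := Sylow.unique_of_normal (hRp.toSylow hRi) (by
        exact hRn) |>.instSubsingleton
      have hQR : Q = hRp.toSylow hRi := Subsingleton.elim _ _
      rw [hQR]
      exact ⟨hRn, hRc⟩
    · obtain ⟨N, hNn, hN1, hN2⟩ : ∃ N : Subgroup G, N.Normal ∧ N ≠ ⊥ ∧ N ≠ ⊤ := by
        by_contra hcon
        push Not at hcon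
        exact hsimple ⟨fun H hH => or_iff_not_imp_left.2 (hcon H hH)⟩
      haveI := hNn
      have h1 : Nat.card N < n := hn ▸ lt_of_le_of_ne (Subgroup.card_le_card_group N)
        fun h => hN2 ((Subgroup.card_eq_iff_eq_top N).1 h)
      have h2 : Nat.card (G ⧸ N) < n := by
        rw [← hn, Subgroup.card_eq_card_quotient_mul_card_subgroup N]
        exact lt_mul_of_one_lt_right Nat.card_pos ((Subgroup.one_lt_card_iff_ne_bot N).2 hN1)
      exact PSolv.isPSolvable_of_extension N (ih _ h1 N rfl (hsubdeg N))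
        (ih _ h2 (G ⧸ N) rfl fun β => by rw [← CharGraph.charDegree_inflate N β]; exact hdeg _)

/-- All degrees below `p`: a normal abelian Sylow `p`-subgroup. -/
theorem normal_abelian_sylow_of_small_degrees [Finite G] {p : ℕ} [Fact p.Prime]
    (hdeg : ∀ χ : IrrCharacter G, charDegree (χ : G → ℂ) < p) :
    ∃ P : Subgroup G, P.Normal ∧ (∀ x ∈ P, ∀ y ∈ P, x * y = y * x) ∧ IsPGroup p P ∧
      ¬ p ∣ P.index :=
  (normal_abelian_sylow_iff (isPSolvable_of_small_degrees (Nat.card G) G rfl hdeg)).2 fun χ h =>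
    (Nat.le_of_dvd (deg_pos χ) h).not_gt (hdeg χ)

end Cfsg.Agent.CharDeg
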