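import Cfsg.Agent.CharDeg.Tools
import Cfsg.Agent.CharInd.Monomial

/-!
The inductive step of Taketa's argument in terms of kernels, and consequences.
-/

set_option autoImplicit false
set_option linter.style.haveILetI false

noncomputable section

namespace Cfsg.Agent.CharDeg

open Cfsg
open scoped commutatorElement

universe u
variable {G : Type u} [Group G] [Finite G]

/-- If the characters of degree below the index of `H` are trivial on the normal subgroup `K`, a
character induced from a linear character of `H` is trivial on `⁅K, K⁆`. -/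
theorem monomial_kills [Fintype G] (K : Subgroup G) [K.Normal] (H : Subgroup G) (lam : H →* ℂˣ)
    (hK : ∀ ξ : IrrCharacter G, charDegree (ξ : G → ℂ) < H.index →
      ∀ y ∈ K, (ξ : G → ℂ) y = (ξ : G → ℂ) 1) :
    ∀ g ∈ ⁅K, K⁆, indFun H (fun h => (lam h : ℂ)) g = indFun H (fun h => (lam h : ℂ)) 1 := by
  classical
  have hsub : K ≤ H := by
    intro y hy
    by_cases h1 : H.index = 1
    · rw [Subgroup.index_eq_one] at h1
      exact h1 ▸ Subgroup.mem_top y
    let π : G → ℂ := indFun H (fun _ => 1)
    have hπc : IsCharacter G π := CharInd.isCharacter_indFun H Char.isCharacter_const_one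
    obtain ⟨m, hm, hm'⟩ := Char.isCharacter_exists_coeff hπc
    let one' : IrrCharacter G := ⟨fun _ => 1, Char.isIrrCharacter_const_one⟩
    letI := Fintype.ofFinite H
    have hm1 : m one' = 1 := by
      have e := hm' one'
      rw [CharInd.classInner_indFun_left H _ (Char.irr_isClassFunction one'.2)] at e
      simp only [one'] at e
      rw [Char.classInner_irr_self Char.isIrrCharacter_const_one] at e
      exact_mod_cast e.symm
    have hdsum : ∑ ξ : IrrCharacter G, m ξ * charDegree (ξ : G → ℂ) = H.index := by
      have h2 := congrFun hm 1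
      simp only [π, CharInd.indFun_one_apply, mul_one, Finset.sum_apply, Pi.mul_apply,
        Pi.natCast_apply, one_apply, nsmul_eq_mul] at h2
      exact_mod_cast h2.symm
    have hπy : π y = π 1 := by
      rw [hm, Finset.sum_apply, Finset.sum_apply]
      refine Finset.sum_congr rfl fun ξ _ => ?_
      simp only [Pi.smul_apply]
      by_cases hξ1 : ξ = one'
      · subst hξ1; rfl
      by_cases hξm : m ξ = 0
      · simp [hξm]
      congr 1
      refine hK ξ ?_ y hy
      have hpair : m one' * charDegree (one' : G → ℂ) + m ξ * charDegree (ξ : G → ℂ) ≤ H.index := by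
        rw [← hdsum, ← Finset.sum_pair (f := fun ξ : IrrCharacter G => m ξ * charDegree (ξ : G → ℂ))
          (Ne.symm hξ1)]
        exact Finset.sum_le_sum_of_subset (Finset.subset_univ _)
      have h2 : charDegree (ξ : G → ℂ) ≤ m ξ * charDegree (ξ : G → ℂ) :=
        Nat.le_mul_of_pos_left _ (Nat.pos_of_ne_zero hξm)
      have h3 := deg_pos one'
      rw [hm1, one_mul] at hpair
      omega
    by_contra hyH
    have hlt : (∑ x : G, extendByZero H (fun _ => (1 : ℂ)) (x⁻¹ * y * x)).re <
        (Nat.card G : ℝ) := by
      rw [Complex.re_sum, Nat.card_eq_fintype_card, ← Finset.card_univ, Finset.card_eq_sum_ones,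
        Nat.cast_sum, Nat.cast_one]
      refine Finset.sum_lt_sum (fun x _ => ?_) ⟨1, Finset.mem_univ _, ?_⟩
      · by_cases hx : x⁻¹ * y * x ∈ H <;>
          simp [CharInd.extendByZero_mem, CharInd.extendByZero_notMem, hx]
      · rw [CharInd.extendByZero_notMem H _ (by simpa using hyH)]
        norm_num
    have e := congrArg (fun z => (Nat.card H : ℂ) * z) hπy
    simp only [π, CharInd.card_mul_indFun, CharInd.indFun_one_apply, mul_one] at e
    rw [← Nat.cast_mul, H.card_mul_index] at e
    rw [e, Complex.natCast_re] at hlt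
    exact lt_irrefl _ hlt
  intro g hg
  have hall : ∀ x : G, extendByZero H (fun h => (lam h : ℂ)) (x⁻¹ * g * x) = 1 := by
    intro x
    have hx : x⁻¹ * g * x ∈ ⁅K, K⁆ := by
      simpa using (Subgroup.commutator_normal K K).conj_mem g hg x⁻¹
    have hle2 : ⁅K, K⁆ ≤ (commutator H).map H.subtype := by
      rw [commutator_def, Subgroup.map_commutator, ← MonoidHom.range_eq_map, Subgroup.range_subtype]
      exact Subgroup.commutator_mono hsub hsub
    obtain ⟨c, hc, hcx⟩ := hle2 hx
    rw [← hcx, Subgroup.coe_subtype, CharInd.extendByZero_coe]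
    have : lam c = 1 := Abelianization.commutator_subset_ker lam hc
    rw [this, Units.val_one]
  have h1 : ∀ x : G, extendByZero H (fun h => (lam h : ℂ)) (x⁻¹ * 1 * x) = 1 := fun x => by
    rw [mul_one, inv_mul_cancel,
      show (1 : G) = ((1 : H) : G) from rfl, CharInd.extendByZero_coe, map_one, Units.val_one]
  simp only [CharInd.indFun_apply, hall, h1]

/-- An element in the kernel of every irreducible character is trivial. -/
theorem eq_one_of_forall_irr {g : G} (h : ∀ χ : IrrCharacter G, (χ : G → ℂ) g = (χ : G → ℂ) 1) :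
    g = 1 := by
  by_contra hg
  obtain ⟨χ, hχ⟩ := Char.exists_irr_ne_degree hg
  exact hχ (h χ)

/-- Linear characters are trivial on the derived subgroup. -/
theorem linear_apply_of_mem_commutator (χ : IrrCharacter G) (h : charDegree (χ : G → ℂ) = 1) {g : G}
    (hg : g ∈ commutator G) : (χ : G → ℂ) g = (χ : G → ℂ) 1 := by
  have h1 : (χ : G → ℂ) 1 = 1 := by rw [one_apply, h, Nat.cast_one]
  rw [Char.linear_eq_one_of_mem_commutator (Char.isCharacter_of_irr χ.2) h1 hg, h1]

/-- A monomial group with two degrees is metabelian. -/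
theorem commutator_comm_of_monomial {m : ℕ}
    (hM : ∀ [Fintype G], ∀ χ : G → ℂ, IsIrrCharacter G χ →
      ∃ (H : Subgroup G) (lam : H →* ℂˣ), χ = indFun H (fun h => (lam h : ℂ)))
    (hcd : ∀ χ : IrrCharacter G, charDegree (χ : G → ℂ) = 1 ∨ charDegree (χ : G → ℂ) = m) :
    ∀ a ∈ commutator G, ∀ b ∈ commutator G, a * b = b * a := by
  letI := Fintype.ofFinite G
  intro a ha b hb
  have hab : ⁅a, b⁆ = (1 : G) := by
    have hmem : ⁅a, b⁆ ∈ ⁅commutator G, commutator G⁆ := Subgroup.commutator_mem_commutator ha hb
    refine eq_one_of_forall_irr fun χ => ?_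
    rcases hcd χ with h | h
    · exact linear_apply_of_mem_commutator χ h
        (Subgroup.commutator_le_left (commutator G) (commutator G) hmem)
    · obtain ⟨H, lam, hH⟩ := hM χ χ.2
      have hidx : H.index = m := by
        have h1 := congrFun hH 1
        rw [one_apply, h, CharInd.indFun_one_apply, map_one, Units.val_one, mul_one] at h1
        exact_mod_cast h1.symm
      rw [hH]
      refine monomial_kills (commutator G) H lam (fun ξ hξ y hy => ?_) _ hmem
      rcases hcd ξ with h' | h'
      · exact linear_apply_of_mem_commutator ξ h' hy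
      · omega
  exact commutatorElement_eq_one_iff_mul_comm.1 hab

end Cfsg.Agent.CharDeg
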