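import Cfsg.Agent.CharDeg.MaxAbelian
import Cfsg.Agent.CharDeg.Monomial

/-!
Groups with degrees `1` and a prime `p`.
-/

set_option autoImplicit false
set_option linter.style.haveILetI false

noncomputable section

namespace Cfsg.Agent.CharDeg

open Cfsg
open scoped ComplexConjugate

universe u
variable {G : Type u} [Group G] [Finite G] {p : ℕ}

/-- The central quotient of an internal product of a `p`-group and an abelian group. -/
theorem isPGroup_quotient_center_of_prod (P A : Subgroup G) (hP : P.Normal) (hA : A.Normal)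
    (hPp : IsPGroup p P) (hAc : ∀ a ∈ A, ∀ b ∈ A, a * b = b * a) (hd : P ⊓ A = ⊥)
    (hs : P ⊔ A = ⊤) : IsPGroup p (G ⧸ Subgroup.center G) := by
  haveI := hA
  have hcomm : ∀ x ∈ P, ∀ a ∈ A, x * a = a * x := fun x hx a ha =>
    Subgroup.commute_of_normal_of_disjoint P A hP hA (disjoint_iff.2 hd) x a hx ha
  have hZ : A ≤ Subgroup.center G := fun a ha => Subgroup.mem_center_iff.2 fun g => by
    have hg : g ∈ Subgroup.centralizer ({a} : Set G) := by
      refine (hs ▸ sup_le (fun x hx => ?_) (fun x hx => ?_) :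
        (⊤ : Subgroup G) ≤ Subgroup.centralizer ({a} : Set G)) (Subgroup.mem_top g)
      · exact Subgroup.mem_centralizer_singleton_iff.2 (hcomm x hx a ha)
      · exact Subgroup.mem_centralizer_singleton_iff.2 (hAc x hx a ha)
    exact Subgroup.mem_centralizer_singleton_iff.1 hg
  refine hPp.of_surjective ((QuotientGroup.mk' (Subgroup.center G)).comp P.subtype) fun q => ?_
  obtain ⟨g, rfl⟩ := QuotientGroup.mk_surjective q
  obtain ⟨x, hx, a, ha, rfl⟩ := Subgroup.mem_sup_of_normal_right.1 (hs ▸ Subgroup.mem_top g)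
  exact ⟨⟨x, hx⟩, QuotientGroup.eq.2 (by simpa using hZ ha)⟩

/-- The square of a degree is bounded by the index of the centre. -/
theorem deg_sq_mul_center_le (χ : IrrCharacter G) :
    charDegree (χ : G → ℂ) ^ 2 * Nat.card (Subgroup.center G) ≤ Nat.card G := by
  classical
  letI := Fintype.ofFinite G
  set d := charDegree (χ : G → ℂ) with hd
  have h1 : ((∑ g : G, ‖(χ : G → ℂ) g‖ ^ 2 : ℝ) : ℂ) = ((Nat.card G : ℕ) : ℂ) := by
    rw [← mul_one ((Nat.card G : ℕ) : ℂ), ← Char.classInner_irr_self χ.2,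
      CharInd.classInner_congr_card]
    push_cast
    exact Finset.sum_congr rfl fun g _ => (Complex.mul_conj' _).symm
  have h2 : ∑ g : G, ‖(χ : G → ℂ) g‖ ^ 2 = (Nat.card G : ℝ) := by exact_mod_cast h1
  have h3 : ∀ z ∈ Subgroup.center G, ‖(χ : G → ℂ) z‖ ^ 2 = (d : ℝ) ^ 2 := by
    intro z hz
    obtain ⟨ω, hω, hz', -⟩ := Char.irr_mul_center χ.2 hz
    rw [hz', norm_mul, Complex.norm_eq_one_of_pow_eq_one hω (orderOf_pos z).ne', one_mul,
      one_apply, Complex.norm_natCast]
  have h4 : ∑ g ∈ Finset.univ.filter (· ∈ Subgroup.center G), ‖(χ : G → ℂ) g‖ ^ 2 ≤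
      ∑ g : G, ‖(χ : G → ℂ) g‖ ^ 2 :=
    Finset.sum_le_univ_sum_of_nonneg fun g => sq_nonneg _
  rw [Finset.sum_congr rfl (fun g hg => h3 g (Finset.mem_filter.1 hg).2), Finset.sum_const,
    nsmul_eq_mul, h2, ← Fintype.card_subtype, ← Nat.card_eq_fintype_card] at h4
  have h5 : ((Nat.card (Subgroup.center G) * d ^ 2 : ℕ) : ℝ) ≤ ((Nat.card G : ℕ) : ℝ) := by
    push_cast
    exact h4
  rw [mul_comm]
  exact_mod_cast h5

theorem conj_zpow_eq {g a c : G} (hc : c ∈ Subgroup.center G) (h : g * a * g⁻¹ = c * a) (n : ℤ) :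
    g * a ^ n * g⁻¹ = c ^ n * a ^ n := by
  rw [← conj_zpow, h, Commute.mul_zpow (Subgroup.mem_center_iff.1 hc a).symm]

/-- Without an abelian normal subgroup of index `p`, the centre has index `p ^ 3`. -/
theorem center_index_eq_cube [Fact p.Prime] (hP : IsPGroup p (G ⧸ Subgroup.center G))
    (hcd : ∀ χ : IrrCharacter G, charDegree (χ : G → ℂ) = 1 ∨ charDegree (χ : G → ℂ) = p)
    (hG : ∃ a b : G, a * b ≠ b * a)
    (hno : ¬ ∃ A : Subgroup G, A.Normal ∧ (∀ a ∈ A, ∀ b ∈ A, a * b = b * a) ∧ A.index = p) :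
    (Subgroup.center G).index = p ^ 3 := by
  classical
  have hpp : p.Prime := Fact.out
  obtain ⟨x₀, y₀, hxy₀⟩ := hG
  have hgen : ∀ B : Subgroup G, IsMaxNormalAbelian B → B ≠ ⊤ ∧ B.index ≠ p := fun B hB =>
    ⟨fun h => hxy₀ (hB.comm x₀ (h ▸ Subgroup.mem_top x₀) y₀ (h ▸ Subgroup.mem_top y₀)),
      fun h => hno ⟨B, hB.normal, hB.comm, h⟩⟩
  have hZc : ∀ a ∈ Subgroup.center G, ∀ b ∈ Subgroup.center G, a * b = b * a := fun a _ b hb =>
    Subgroup.mem_center_iff.1 hb a
  obtain ⟨A, -, hA⟩ := exists_maxNormalAbelian (Subgroup.center G) inferInstance hZc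
  obtain ⟨hA1, hAp⟩ := hgen A hA
  haveI := hA.normal
  obtain ⟨hGA, hcard, hGAZ, hCA⟩ := maxNormalAbelian_data hP hcd hA hA1 hAp
  have hZpos : 0 < Nat.card (Subgroup.center G) := Nat.card_pos
  have hZidx : (Subgroup.center G).index = p * A.index := by
    have h1 := A.card_mul_index
    rw [← (Subgroup.center G).card_mul_index, hcard, mul_assoc, mul_left_comm] at h1
    exact (Nat.eq_of_mul_eq_mul_left hZpos h1).symm
  obtain ⟨k, hk⟩ : ∃ k, A.index = p ^ k := by
    obtain ⟨n, hn⟩ := IsPGroup.iff_card.1 hP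
    rw [← Subgroup.index_eq_card, hZidx] at hn
    obtain ⟨k, -, hk⟩ := (Nat.dvd_prime_pow hpp).1 (Dvd.intro_left p hn)
    exact ⟨k, hk⟩
  have hk2 : 2 ≤ k := by
    rcases k with _ | _ | k
    · exact absurd (Subgroup.index_eq_one.1 (by simpa using hk)) hA1
    · exact absurd (by simpa using hk) hAp
    · omega
  suffices k ≤ 2 by
    rw [hZidx, hk, show k = 2 by omega]
    ring
  by_cases hGZ : ∀ x y : G, x * y * x⁻¹ * y⁻¹ ∈ Subgroup.center G
  · -- class two: count conjugacy classes
    by_contra hk3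
    letI := Fintype.ofFinite G
    have hcent : ∀ x : G, x ∉ Subgroup.center G →
        Nat.card (Subgroup.centralizer ({x} : Set G)) ≤ p * Nat.card (Subgroup.center G) := by
      intro x hx
      obtain ⟨B, hBle, hB⟩ := exists_maxNormalAbelian
        (Subgroup.closure (insert x (Subgroup.center G : Set G)))
        (normal_closure_insert _ fun g => hGZ g x)
        (closure_insert_comm hZc fun a ha => (Subgroup.mem_center_iff.1 ha x).symm)
      obtain ⟨hB1, hBp⟩ := hgen B hB
      obtain ⟨-, hBcard, -, hCB⟩ := maxNormalAbelian_data hP hcd hB hB1 hBp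
      rw [hCB x (hBle (Subgroup.subset_closure (Set.mem_insert _ _))) hx, hBcard]
    have h1 : Nat.card {q : G × G // Commute q.1 q.2} =
        ∑ x : G, Nat.card (Subgroup.centralizer ({x} : Set G)) := by
      rw [Nat.card_congr (Equiv.subtypeProdEquivSigmaSubtype fun a b : G => Commute a b),
        Nat.card_sigma]
      refine Finset.sum_congr rfl fun x _ => Nat.card_congr (Equiv.subtypeEquivRight fun b => ?_)
      rw [Subgroup.mem_centralizer_singleton_iff]
      exact ⟨fun h => h.eq.symm, fun h => h.symm⟩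
    have h2 : Nat.card (ConjClasses G) * Nat.card G ≤
        Nat.card (Subgroup.center G) * (1 + p) * Nat.card G := by
      rw [← card_comm_eq_card_conjClasses_mul_card, h1, ← Finset.sum_filter_add_sum_filter_not
        Finset.univ (fun x : G => x ∈ Subgroup.center G)]
      calc (∑ x ∈ Finset.univ.filter (fun x : G => x ∈ Subgroup.center G),
            Nat.card (Subgroup.centralizer ({x} : Set G))) +
            ∑ x ∈ Finset.univ.filter (fun x : G => x ∉ Subgroup.center G),
              Nat.card (Subgroup.centralizer ({x} : Set G))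
          ≤ Nat.card (Subgroup.center G) * Nat.card G +
              Nat.card G * (p * Nat.card (Subgroup.center G)) := by
            refine add_le_add ?_ ?_
            · refine (Finset.sum_le_card_nsmul _ _ _ fun x _ => Subgroup.card_le_card_group _).trans_eq ?_
              rw [smul_eq_mul, ← Fintype.card_subtype, ← Nat.card_eq_fintype_card]
            · refine (Finset.sum_le_card_nsmul _ _ _ fun x hx =>
                hcent x (Finset.mem_filter.1 hx).2).trans ?_
              rw [smul_eq_mul]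
              refine Nat.mul_le_mul_right _ ?_
              rw [Nat.card_eq_fintype_card]
              exact Finset.card_le_univ _
        _ = Nat.card (Subgroup.center G) * (1 + p) * Nat.card G := by ring
    have h3 : Nat.card (ConjClasses G) ≤ Nat.card (Subgroup.center G) * (1 + p) :=
      Nat.le_of_mul_le_mul_right h2 Nat.card_pos
    letI := Fintype.ofFinite (IrrCharacter G)
    have h4 : Nat.card G ≤ Nat.card (ConjClasses G) * p ^ 2 := by
      have hsum : ∑ χ : IrrCharacter G, charDegree (χ : G → ℂ) ^ 2 = Nat.card G := by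
        have := Char.sum_irr_degree_sq (G := G)
        simp only [one_apply] at this
        exact_mod_cast this
      rw [← hsum, ← Char.card_irr_eq_card_conjClasses, Nat.card_eq_fintype_card]
      refine (Finset.sum_le_card_nsmul _ _ (p ^ 2) fun χ _ => Nat.pow_le_pow_left ?_ 2).trans_eq rfl
      rcases hcd χ with h | h <;> rw [h]
      exact hpp.one_le
    have h5 : p ^ 4 ≤ (1 + p) * p ^ 2 := by
      have h6 : Nat.card (Subgroup.center G) * p ^ 4 ≤
          Nat.card (Subgroup.center G) * ((1 + p) * p ^ 2) := by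
        calc Nat.card (Subgroup.center G) * p ^ 4
            ≤ Nat.card (Subgroup.center G) * (Subgroup.center G).index := by
              refine Nat.mul_le_mul_left _ ?_
              rw [hZidx, hk, ← pow_succ']
              exact Nat.pow_le_pow_right hpp.pos (by omega)
          _ = Nat.card G := (Subgroup.center G).card_mul_index
          _ ≤ Nat.card (ConjClasses G) * p ^ 2 := h4
          _ ≤ Nat.card (Subgroup.center G) * (1 + p) * p ^ 2 := Nat.mul_le_mul_right _ h3
          _ = _ := by ring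
      exact Nat.le_of_mul_le_mul_left h6 hZpos
    have h7 : p ^ 2 ≤ 1 + p := Nat.le_of_mul_le_mul_right (c := p ^ 2) (by
      rw [← pow_add]; exact h5) (pow_pos hpp.pos 2)
    have := hpp.two_le
    nlinarith
  · -- two generators for the action on `A`
    push Not at hGZ
    obtain ⟨x, y, hxy⟩ := hGZ
    obtain ⟨a, haA, haZ⟩ : ∃ a ∈ A, a ∉ Subgroup.center G := ⟨_, hGA x y, hxy⟩
    let ψ : G →* G := MonoidHom.mk' (fun g => g * a * g⁻¹ * a⁻¹) fun g h => by
      have hh := Subgroup.mem_center_iff.1 (hGAZ h a haA)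
      calc g * h * a * (g * h)⁻¹ * a⁻¹ = g * (h * a * h⁻¹ * a⁻¹) * (a * g⁻¹ * a⁻¹) := by group
        _ = (h * a * h⁻¹ * a⁻¹) * g * (a * g⁻¹ * a⁻¹) := by rw [hh g]
        _ = (h * a * h⁻¹ * a⁻¹) * (g * a * g⁻¹ * a⁻¹) := by group
        _ = (g * a * g⁻¹ * a⁻¹) * (h * a * h⁻¹ * a⁻¹) := (hh _).symm
    have hψ : ∀ g, ψ g = g * a * g⁻¹ * a⁻¹ := fun g => rfl
    have hψc : ∀ g, ψ g ∈ Subgroup.center G := fun g => hGAZ g a haA
    have hψa : ∀ (g : G) (n : ℤ), g * a ^ n * g⁻¹ = ψ g ^ n * a ^ n := fun g n =>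
      conj_zpow_eq (hψc g) (by rw [hψ, inv_mul_cancel_right]) n
    set S := Subgroup.center G ⊔ Subgroup.zpowers a with hS
    have hSA : S = A := by
      have hle : S ≤ A := sup_le hA.center_le (Subgroup.zpowers_le.2 haA)
      refine Subgroup.eq_of_le_of_card_ge hle ?_
      have hlt : Nat.card (Subgroup.center G) < Nat.card S := by
        by_contra hle'
        exact haZ ((Subgroup.eq_of_le_of_card_ge (le_sup_left (b := Subgroup.zpowers a))
          (not_lt.1 hle')).symm ▸ Subgroup.mem_sup_right (Subgroup.mem_zpowers a))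
      obtain ⟨r, hr⟩ := Subgroup.card_dvd_of_le (le_sup_left : Subgroup.center G ≤ S)
      have hdS : Nat.card S ∣ Nat.card A := Subgroup.card_dvd_of_le hle
      rw [hcard, hr, mul_comm p, Nat.mul_dvd_mul_iff_left hZpos] at hdS
      rcases (Nat.dvd_prime hpp).1 hdS with hr1 | hr1
      · rw [hr, hr1, mul_one] at hlt
        exact absurd hlt (lt_irrefl _)
      · rw [hcard, hr, hr1, mul_comm]
    have hrep : ∀ u ∈ A, ∃ z ∈ Subgroup.center G, ∃ n : ℤ, u = z * a ^ n := by
      intro u hu
      rw [← hSA] at hu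
      obtain ⟨z, hz, w, ⟨n, rfl⟩, rfl⟩ := Subgroup.mem_sup_of_normal_left.1 hu
      exact ⟨z, hz, n, rfl⟩
    have hap : ∀ u ∈ A, u ^ p ∈ Subgroup.center G := by
      intro u hu
      have hidx : ((Subgroup.center G).subgroupOf A).index = p := by
        have h2 := ((Subgroup.center G).subgroupOf A).index_mul_card
        rw [Nat.card_congr (Subgroup.subgroupOfEquivOfLe hA.center_le).toEquiv, hcard] at h2
        exact Nat.eq_of_mul_eq_mul_right hZpos h2
      have := hidx ▸ Subgroup.pow_index_mem ((Subgroup.center G).subgroupOf A) ⟨u, hu⟩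
      simpa [Subgroup.mem_subgroupOf] using this
    have hψp : ∀ g, ψ g ^ p = 1 := by
      intro g
      have h1 := hψa g p
      rw [zpow_natCast, zpow_natCast, Subgroup.mem_center_iff.1 (hap a haA) g,
        mul_inv_cancel_right] at h1
      exact right_eq_mul.1 h1
    choose! zc hzc fc hfc using hrep
    let c : G → G → G := fun u v => u * v * u⁻¹ * v⁻¹
    let f : G → G → ℤ := fun u v => fc (c u v)
    have hconj : ∀ g u v : G, g * c u v * g⁻¹ = ψ g ^ f u v * c u v := by
      intro g u v
      have he := hfc (c u v) (hGA u v)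
      have hz := Subgroup.mem_center_iff.1 (hzc (c u v) (hGA u v)) g
      calc g * c u v * g⁻¹ = g * (zc (c u v) * a ^ f u v) * g⁻¹ := by rw [← he]
        _ = zc (c u v) * (g * a ^ f u v * g⁻¹) := by
          rw [← mul_assoc g, hz, mul_assoc, mul_assoc, ← mul_assoc g]
        _ = zc (c u v) * (ψ g ^ f u v * a ^ f u v) := by rw [hψa]
        _ = ψ g ^ f u v * (zc (c u v) * a ^ f u v) := by
          rw [← mul_assoc, ← Subgroup.mem_center_iff.1 (hzc (c u v) (hGA u v)) (ψ g ^ f u v),
            mul_assoc]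
        _ = ψ g ^ f u v * c u v := by rw [← he]
    have hkey : ∀ z : G, ψ y ^ f x z = ψ x ^ f y z * (ψ z ^ f y x)⁻¹ := by
      intro z
      have hAab : c x z * c y z = c y z * c x z := hA.comm _ (hGA x z) _ (hGA y z)
      have e1 : c (x * y) z = ψ x ^ f y z * c y z * c x z := by
        rw [← hconj x y z]
        simp only [c]
        group
      have e2 : c (y * x) z = ψ y ^ f x z * c x z * c y z := by
        rw [← hconj y x z]
        simp only [c]
        group
      have e3 : c (y * x) z = c y x * c (x * y) z * (c y x)⁻¹ * c (c y x) z := by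
        simp only [c]
        group
      have e4 : c y x * c (x * y) z * (c y x)⁻¹ = c (x * y) z := by
        rw [hA.comm _ (hGA y x) _ (hGA (x * y) z), mul_inv_cancel_right]
      have e5 : c (c y x) z = (ψ z ^ f y x)⁻¹ := by
        show c y x * z * (c y x)⁻¹ * z⁻¹ = _
        rw [show c y x * z * (c y x)⁻¹ * z⁻¹ = c y x * (z * c y x * z⁻¹)⁻¹ by group, hconj,
          mul_inv_rev, mul_inv_cancel_left]
      rw [e2, e4, e5, e1] at e3
      rw [mul_assoc, mul_assoc (ψ x ^ f y z), ← hAab, mul_assoc (ψ x ^ f y z),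
        Subgroup.mem_center_iff.1 (Subgroup.inv_mem _ (Subgroup.zpow_mem _ (hψc z) (f y x)))
          (c x z * c y z), ← mul_assoc (ψ x ^ f y z)] at e3
      exact mul_right_cancel e3
    have hfp : ¬ (p : ℤ) ∣ f y x := by
      rintro ⟨r, hr⟩
      refine hxy ?_
      have h1 : c y x ∈ Subgroup.center G := by
        rw [hfc (c y x) (hGA y x), show fc (c y x) = f y x from rfl, hr, zpow_mul, zpow_natCast]
        exact mul_mem (hzc _ (hGA y x)) (Subgroup.zpow_mem _ (hap a haA) r)
      have h2 : x * y * x⁻¹ * y⁻¹ = (c y x)⁻¹ := by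
        simp only [c]
        group
      rw [h2]
      exact Subgroup.inv_mem _ h1
    obtain ⟨r, hr⟩ : ∃ r : ℤ, (p : ℤ) ∣ f y x * r - 1 := by
      have hpz : Prime (p : ℤ) := Nat.prime_iff_prime_int.1 hpp
      obtain ⟨u, v, huv⟩ := (hpz.irreducible.coprime_iff_not_dvd.2 hfp)
      exact ⟨v, ⟨-u, by linear_combination huv⟩⟩
    let F : Fin p × Fin p → G := fun q => ψ x ^ (q.1 : ℕ) * ψ y ^ (q.2 : ℕ)
    have hrange : ∀ z, ∃ q, F q = ψ z := by
      intro z
      have hz : ψ z = (ψ z ^ f y x) ^ r := by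
        obtain ⟨s, hs⟩ := hr
        rw [← zpow_mul, show f y x * r = 1 + (p : ℤ) * s by linear_combination hs, zpow_add,
          zpow_one, zpow_mul, zpow_natCast, hψp, one_zpow, mul_one]
      have h1 : ψ z ^ f y x = ψ x ^ f y z * (ψ y ^ f x z)⁻¹ := by
        rw [hkey z, mul_inv_rev, inv_inv, ← mul_assoc,
          Subgroup.mem_center_iff.1 (Subgroup.zpow_mem _ (hψc z) (f y x)), mul_assoc,
          mul_inv_cancel, mul_one]
      rw [h1, ← zpow_neg, Commute.mul_zpow (Subgroup.mem_center_iff.1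
        (Subgroup.zpow_mem _ (hψc y) _) _), ← zpow_mul, ← zpow_mul] at hz
      have hred : ∀ (g : G) (n : ℤ), ∃ i : Fin p, ψ g ^ (i : ℕ) = ψ g ^ n := by
        intro g n
        refine ⟨⟨(n % (p : ℤ)).toNat, ?_⟩, ?_⟩
        · have := Int.emod_lt_of_pos n (Int.natCast_pos.2 hpp.pos)
          have := Int.emod_nonneg n (Int.natCast_ne_zero.2 hpp.ne_zero)
          omega
        · rw [← zpow_natCast]
          simp only [Int.toNat_of_nonneg (Int.emod_nonneg n (Int.natCast_ne_zero.2 hpp.ne_zero))]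
          conv_rhs => rw [← Int.emod_add_mul_ediv n p, zpow_add, zpow_mul, zpow_natCast, hψp, one_zpow,
            mul_one]
      obtain ⟨i, hi⟩ := hred x (f y z * r)
      obtain ⟨j, hj⟩ := hred y (-f x z * r)
      exact ⟨(i, j), by show ψ x ^ (i : ℕ) * ψ y ^ (j : ℕ) = ψ z; rw [hi, hj, ← hz]⟩
    have hkerA : ψ.ker = A := by
      ext g
      rw [MonoidHom.mem_ker, hψ, mul_inv_eq_one, mul_inv_eq_iff_eq_mul,
        ← Subgroup.mem_centralizer_singleton_iff, hCA a haA haZ]
    have hcardr : p ^ k ≤ p ^ 2 := by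
      rw [← hk, ← hkerA, Subgroup.index_ker]
      calc Nat.card ψ.range ≤ Nat.card (Fin p × Fin p) := by
            refine Nat.card_le_card_of_surjective
              (fun q => (⟨F q, MonoidHom.mem_range.2
                ⟨x ^ (q.1 : ℕ) * y ^ (q.2 : ℕ), by simp [F]⟩⟩ : ψ.range)) ?_
            rintro ⟨_, z, rfl⟩
            obtain ⟨q, hq⟩ := hrange z
            exact ⟨q, Subtype.ext hq⟩
        _ = p ^ 2 := by simp [sq]
    exact (Nat.pow_le_pow_iff_right hpp.one_lt).1 hcardr

end Cfsg.Agent.CharDeg
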