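import Cfsg.Agent.CharDeg.MaxDegree
import Cfsg.Agent.Char.Burnside
import Cfsg.Agent.Char.Thompson
import Cfsg.Agent.LinearBound.Tools

/-!
A group whose nonlinear degrees are all prime is solvable.
-/

set_option autoImplicit false
set_option linter.style.haveILetI false

noncomputable section

namespace Cfsg.Agent.CharDeg

open Cfsg
open scoped ComplexConjugate
open Cfsg.Agent.Char (irr_charDegree_spec)

universe u
variable {G : Type u} [Group G]

/-- In a nonabelian simple group the only linear character is trivial. -/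
theorem eq_trivial_of_deg_one [Finite G] [IsSimpleGroup G] (hna : ¬ ∀ a b : G, a * b = b * a)
    (χ : IrrCharacter G) (h1 : charDegree (χ : G → ℂ) = 1) : χ = Char.trivialIrr G := by
  have hcom : commutator G = ⊤ :=
    ((inferInstance : (commutator G).Normal).eq_bot_or_eq_top).resolve_left fun h =>
      hna fun a b => Subgroup.mem_center_iff.1
        ((commutator_eq_bot_iff_center_eq_top _).1 h ▸ Subgroup.mem_top b) a
  refine Subtype.ext (funext fun g => ?_)
  exact Char.linear_eq_one_of_mem_commutator (Char.isCharacter_of_irr χ.2)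
    (by rw [one_apply]; exact_mod_cast h1) (hcom ▸ Subgroup.mem_top g)

/-- Nontrivial irreducible characters of simple groups are faithful. -/
theorem faithful_of_simple [Finite G] [IsSimpleGroup G] (χ : IrrCharacter G)
    (h1 : charDegree (χ : G → ℂ) ≠ 1) (g : G) (hg : (χ : G → ℂ) g = (χ : G → ℂ) 1) : g = 1 := by
  obtain ⟨K, hKn, hK⟩ := CharInd.exists_charKer (Char.isCharacter_of_irr χ.2)
  rcases hKn.eq_bot_or_eq_top with h | h
  · exact Subgroup.mem_bot.1 (h ▸ (hK g).2 hg)
  · exfalso
    obtain ⟨β, hβ, hval⟩ := Char.irr_exists_descend χ.2 K fun n hn => (hK n).1 hn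
    refine h1 ?_
    rw [charDegree, hval, QuotientGroup.mk_one, ← charDegree]
    haveI : Subsingleton (G ⧸ K) := by rw [h]; exact QuotientGroup.subsingleton_quotient_top
    exact deg_eq_one_of_comm (fun a b => Subsingleton.elim _ _) ⟨β, hβ⟩

/-- No nonabelian simple group has all nontrivial degrees prime. -/
theorem false_of_simple_prime_degrees [Fintype G] [IsSimpleGroup G]
    (hna : ¬ ∀ a b : G, a * b = b * a)
    (hdeg : ∀ χ : IrrCharacter G, charDegree (χ : G → ℂ) ≠ 1 → (charDegree (χ : G → ℂ)).Prime) :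
    False := by
  classical
  have hlin := eq_trivial_of_deg_one hna
  have hfaith := faithful_of_simple (G := G)
  have hZ : Subgroup.center G = ⊥ :=
    ((inferInstance : (Subgroup.center G).Normal).eq_bot_or_eq_top).resolve_right fun h =>
      hna fun a b => Subgroup.mem_center_iff.1 (h ▸ Subgroup.mem_top b) a
  -- the largest degree
  obtain ⟨χq, hχq⟩ : ∃ χq : IrrCharacter G, ∀ χ : IrrCharacter G,
      charDegree (χ : G → ℂ) ≤ charDegree (χq : G → ℂ) := by
    haveI : Nonempty (IrrCharacter G) := ⟨Char.trivialIrr G⟩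
    exact Finite.exists_max fun χ : IrrCharacter G => charDegree (χ : G → ℂ)
  set q := charDegree (χq : G → ℂ) with hq
  have hq1 : q ≠ 1 := fun h => hna (comm_of_forall_linear fun χ => by
    have := deg_pos χ; have := hχq χ; omega)
  have hqp : q.Prime := hdeg χq hq1
  haveI : Fact q.Prime := ⟨hqp⟩
  have hqG : q ∣ Nat.card G := BlkChar.irr_charDegree_dvd_card χq
  -- a smaller prime degree
  obtain ⟨χr, hχr1, hχrq⟩ : ∃ χ : IrrCharacter G, charDegree (χ : G → ℂ) ≠ 1 ∧
      charDegree (χ : G → ℂ) < q := by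
    by_contra hcon
    push Not at hcon
    have h := Char.not_dvd_card_pResidual_of_degrees (G := G) (p := q) fun χ hχ =>
      (le_antisymm (hχq χ) (hcon χ hχ)) ▸ dvd_rfl
    rcases (inferInstance : (pResidual q G).Normal).eq_bot_or_eq_top with hb | ht
    · haveI hQ : IsPGroup q G := fun g => by
        obtain ⟨k, hk⟩ := Transfer.exists_pow_mem_pResidual (p := q) g
        exact ⟨k, Subgroup.mem_bot.1 (hb ▸ hk)⟩
      haveI := hQ.center_nontrivial
      exact (Subgroup.nontrivial_iff_ne_bot _).1 ‹_› hZ
    · exact h (by rw [ht, Subgroup.card_top]; exact hqG)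
  have hq3 : 3 ≤ q := by
    have := (hdeg χr hχr1).two_le
    omega
  obtain ⟨P⟩ := (inferInstance : Nonempty (Sylow q G))
  have hPc : ∀ a ∈ (P : Subgroup G), ∀ b ∈ (P : Subgroup G), a * b = b * a := fun a ha b hb =>
    LinearBound.comm_of_pSubgroup hqp (Char.isCharacter_of_irr χr.2) (hfaith χr hχr1) hχrq P.2 ha hb
  have hPne : (P : Subgroup G) ≠ ⊥ := P.ne_bot_of_dvd_card hqG
  -- the character of degree `q` vanishes on `P#`
  have hvan : ∀ x ∈ (P : Subgroup G), x ≠ 1 → (χq : G → ℂ) x = 0 := by
    intro x hx hx1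
    obtain ⟨n, ρ, hρ, hρχ⟩ := χq.2
    have hn : Module.finrank ℂ (Fin n → ℂ) = q := by
      have h1 := one_apply χq
      rw [← hρχ, Representation.char_one, hρχ, ← hq] at h1
      exact_mod_cast h1
    have hle : (P : Subgroup G) ≤ Subgroup.centralizer ({x} : Set G) := fun a ha =>
      Subgroup.mem_centralizer_singleton_iff.2 (hPc a ha x hx)
    have hcop : Nat.Coprime (Module.finrank ℂ (Fin n → ℂ))
        (Subgroup.centralizer ({x} : Set G)).index := by
      rw [hn, hqp.coprime_iff_not_dvd]
      exact fun h => P.not_dvd_index (h.trans (Subgroup.index_dvd_of_le hle))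
    rcases Char.character_eq_zero_or_norm_eq ρ x hcop with h | h
    · rw [← hρχ]; exact h
    · exfalso
      obtain ⟨c, hc⟩ := (Char.norm_character_eq_iff ρ x).1 h
      refine hx1 ?_
      have hcen : x ∈ Subgroup.center G := by
        refine Subgroup.mem_center_iff.2 fun g => ?_
        have h1 : g * x * g⁻¹ * x⁻¹ = 1 := by
          refine hfaith χq hq1 _ ?_
          have h2 : ρ (g * x * g⁻¹ * x⁻¹) = 1 := by
            rw [map_mul, map_mul, map_mul, hc, show ρ g * (c • LinearMap.id) * ρ g⁻¹ =
              (c • LinearMap.id : Module.End ℂ (Fin n → ℂ)) from ?_, ← hc, ← map_mul,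
              mul_inv_cancel, map_one]
            rw [show (LinearMap.id : Module.End ℂ (Fin n → ℂ)) = 1 from rfl, mul_smul_comm, mul_one,
              smul_mul_assoc, ← map_mul, mul_inv_cancel, map_one]
          rw [← hρχ, Representation.character, Representation.character, h2, map_one ρ]
        rw [mul_inv_eq_one, mul_inv_eq_iff_eq_mul] at h1
        exact h1
      rwa [hZ, Subgroup.mem_bot] at hcen
  letI := Fintype.ofFinite (P : Subgroup G)
  have hk : Nat.card (P : Subgroup G) = q := by
    obtain ⟨m, hm⟩ := Char.isCharacter_classInner_nat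
      (CharInd.isCharacter_res (P : Subgroup G) (Char.isCharacter_of_irr χq.2))
      (Char.trivialIrr (P : Subgroup G))
    have h1 : ((q : ℕ) : ℂ) = ((Nat.card (P : Subgroup G) * m : ℕ) : ℂ) := by
      rw [Nat.cast_mul, ← hm, CharInd.classInner_congr_card,
        Finset.sum_eq_single (1 : (P : Subgroup G))]
      · rw [OneMemClass.coe_one, one_apply,
          show ((Char.trivialIrr (P : Subgroup G) : IrrCharacter (P : Subgroup G)) :
            ↥(P : Subgroup G) → ℂ) 1 = 1 from rfl, map_one, mul_one]
      · intro b _ hb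
        rw [hvan b b.2 fun h => hb (Subtype.ext h), zero_mul]
      · intro h; exact absurd (Finset.mem_univ _) h
    have h2 : q = Nat.card (P : Subgroup G) * m := by exact_mod_cast h1
    exact ((Nat.dvd_prime hqp).1 (Dvd.intro m h2.symm)).resolve_left fun h =>
      hPne (Subgroup.card_eq_one.1 h)
  -- the principal block
  obtain ⟨M, hM⟩ := BlkChar.exists_isPModular q hqp
  set N := Subgroup.normalizer ((P : Subgroup G) : Set G) with hN
  set C := Subgroup.centralizer ((P : Subgroup G) : Set G) with hC
  obtain ⟨X, Y, sgn, ε, hdisj, hB, hX, hY, htrivX, hsgn1, hε, hXd, hYd, hYsum, hrel⟩ :=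
    SmallGroups.OrderP.exists_block_data hM P hk (C.relIndex N) rfl
  set e := C.relIndex N with he
  have he2 : 2 ≤ e := by
    have he0 : e ≠ 0 := fun h => by
      rw [← hX, Finset.card_eq_zero] at h
      exact (h ▸ Finset.notMem_empty _ : Char.trivialIrr G ∉ X) htrivX
    by_contra hlt
    have hle : N ≤ C := Subgroup.relIndex_eq_one.1 (by omega)
    have hker := MonoidHom.not_dvd_card_ker_transferSylow P hle
    have hbot : (MonoidHom.transferSylow P hle).ker = ⊥ :=
      ((inferInstance : (MonoidHom.transferSylow P hle).ker.Normal).eq_bot_or_eq_top).resolve_right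
        fun h => hker (by rw [h, Subgroup.card_top]; exact hqG)
    refine hna fun a b => (MonoidHom.ker_eq_bot_iff _).1 hbot (Subtype.ext ?_)
    rw [map_mul, map_mul, Subgroup.coe_mul, Subgroup.coe_mul]
    exact hPc _ (Subtype.coe_prop _) _ (Subtype.coe_prop _)
  have hYpos : 0 < Y.card := by
    rcases Nat.eq_zero_or_pos Y.card with h0 | h0
    · exfalso
      obtain ⟨x, hx⟩ := Subgroup.ne_bot_iff_exists_ne_one.1 hPne
      have := hYsum x x.2 fun h => hx (Subtype.ext h)
      rw [Finset.card_eq_zero.1 h0, Finset.sum_empty] at this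
      rcases hε with h | h <;> simp [h] at this
    · exact h0
  have hele : e ≤ q - 1 := by
    by_contra hlt
    rw [hY, Nat.div_eq_of_lt (by omega)] at hYpos
    exact lt_irrefl _ hYpos
  obtain ⟨θ₀, hθ₀⟩ := Finset.card_pos.1 hYpos
  have hXdeg : ∀ χ ∈ X, χ ≠ Char.trivialIrr G →
      charDegree (χ : G → ℂ) = 2 ∧ sgn χ = -1 ∧ q = 3 := by
    intro χ hχ hne
    obtain ⟨hs, hdvd, -⟩ := hXd χ hχ
    have h1 : charDegree (χ : G → ℂ) ≠ 1 := fun h => hne (hlin χ h)
    have hp := hdeg χ h1
    have h2 := hp.two_le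
    have h3 := hχq χ
    rcases hs with h | h <;> rw [h] at hdvd
    · exfalso
      have := Int.le_of_dvd (by omega) hdvd
      omega
    · have := Int.le_of_dvd (by omega) hdvd
      have h4 : charDegree (χ : G → ℂ) = q - 1 ∨ charDegree (χ : G → ℂ) = q := by omega
      rcases h4 with h4 | h4
      · have h5 : Even (charDegree (χ : G → ℂ)) := by
          rw [h4]
          rcases hqp.eq_two_or_odd' with h6 | h6
          · omega
          · obtain ⟨r, hr⟩ := h6; exact ⟨r, by omega⟩
        have h7 := (hp.even_iff).1 h5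
        exact ⟨h7, h, by omega⟩
      · exfalso
        rw [h4] at hdvd
        have hq' : (q : ℤ) ∣ 1 := by simpa using hdvd.sub (dvd_refl (q : ℤ))
        have := Int.le_of_dvd one_pos hq'
        omega
  obtain ⟨χ₁, hχ₁X, hχ₁⟩ : ∃ χ ∈ X, χ ≠ Char.trivialIrr G :=
    Finset.exists_mem_ne (by omega) _
  obtain ⟨-, -, hq3'⟩ := hXdeg χ₁ hχ₁X hχ₁
  have hee : e = 2 := by omega
  have hXsum : ∑ χ ∈ X, sgn χ * (charDegree (χ : G → ℂ) : ℤ) = -1 := by
    rw [← Finset.add_sum_erase _ _ htrivX,
      Finset.sum_congr rfl (g := fun _ => (-2 : ℤ)) fun χ hχ => ?_]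
    · rw [Finset.sum_const, Finset.card_erase_of_mem htrivX, hX, hee, hsgn1,
        show charDegree ((Char.trivialIrr G : IrrCharacter G) : G → ℂ) = 1 by
          simp [charDegree, show ((Char.trivialIrr G : IrrCharacter G) : G → ℂ) 1 = 1 from rfl]]
      rfl
    · obtain ⟨h1, h2⟩ := Finset.mem_erase.1 hχ
      obtain ⟨h3, h4, -⟩ := hXdeg χ h2 h1
      rw [h3, h4]
      rfl
  have h := hrel θ₀ hθ₀ 1 (by rw [orderOf_one]; exact hqp.not_dvd_one)
  simp only [one_apply] at h
  have h' : ε * (charDegree (θ₀ : G → ℂ) : ℤ) = -1 := by rw [← hXsum]; exact_mod_cast h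
  have hθ1 : charDegree (θ₀ : G → ℂ) = 1 := by rcases hε with rfl | rfl <;> omega
  exact Finset.disjoint_left.1 hdisj htrivX (hlin θ₀ hθ1 ▸ hθ₀)

/-- All nonlinear degrees prime implies solvable. -/
theorem isSolvable_of_prime_degrees : ∀ (n : ℕ) (G : Type u) [Group G] [Finite G], Nat.card G = n →
    (∀ χ : IrrCharacter G, charDegree (χ : G → ℂ) ≠ 1 → (charDegree (χ : G → ℂ)).Prime) →
    Group.IsSolvable G := by
  intro n
  induction n using Nat.strong_induction_on with
  | _ n ih =>
    intro G _ _ hn hdeg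
    classical
    by_cases hab : ∀ a b : G, a * b = b * a
    · letI : CommGroup G := { (inferInstance : Group G) with mul_comm := hab }
      infer_instance
    by_cases hsimple : IsSimpleGroup G
    · exfalso
      letI := Fintype.ofFinite G
      exact false_of_simple_prime_degrees hab hdeg
    · haveI : Nontrivial G := by
        by_contra h
        haveI := not_nontrivial_iff_subsingleton.1 h
        exact hab fun a b => Subsingleton.elim _ _
      obtain ⟨N, hNn, hN1, hN2⟩ : ∃ N : Subgroup G, N.Normal ∧ N ≠ ⊥ ∧ N ≠ ⊤ := by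
        by_contra hcon
        push Not at hcon
        exact hsimple ⟨fun H hH => or_iff_not_imp_left.2 (hcon H hH)⟩
      haveI := hNn
      have h1 : Nat.card N < n := hn ▸ lt_of_le_of_ne (Subgroup.card_le_card_group N)
        fun h => hN2 ((Subgroup.card_eq_iff_eq_top N).1 h)
      have h2 : Nat.card (G ⧸ N) < n := by
        rw [← hn, Subgroup.card_eq_card_quotient_mul_card_subgroup N]
        exact lt_mul_of_one_lt_right Nat.card_pos ((Subgroup.one_lt_card_iff_ne_bot N).2 hN1)
      have hN := ih _ h1 N rfl fun θ hθ => by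
        obtain ⟨χ, hχ⟩ := exists_deg_dvd N θ
        by_cases h1 : charDegree (χ : G → ℂ) = 1
        · exact absurd (Nat.dvd_one.1 (h1 ▸ hχ)) hθ
        · have := ((Nat.dvd_prime (hdeg χ h1)).1 hχ).resolve_left hθ
          rw [this]
          exact hdeg χ h1
      have hQ := ih _ h2 (G ⧸ N) rfl fun β hβ => by
        rw [← CharGraph.charDegree_inflate N β] at hβ ⊢
        exact hdeg _ hβ
      exact (Group.isSolvable_iff_subgroup_quotient N).2 ⟨hN, hQ⟩

end Cfsg.Agent.CharDeg
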