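import Cfsg.Agent.CharDeg.Tools
import Cfsg.Agent.Char.Thompson

/-!
Groups with two character degrees: the structure theorem.
-/

set_option autoImplicit false
set_option linter.style.haveILetI false

noncomputable section

namespace Cfsg.Agent.CharDeg

open Cfsg
open Cfsg.Agent.Char (irr_charDegree_spec)

universe u
variable {G : Type u} [Group G] [Finite G] {m : ℕ}

/-- Degrees in a quotient are degrees of the group. -/
theorem degrees_quotient (hcd : ∀ χ : IrrCharacter G, charDegree (χ : G → ℂ) = 1 ∨ charDegree (χ : G → ℂ) = m)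
    (N : Subgroup G) [N.Normal] (β : IrrCharacter (G ⧸ N)) :
    charDegree (β : G ⧸ N → ℂ) = 1 ∨ charDegree (β : G ⧸ N → ℂ) = m := by
  rw [← CharGraph.charDegree_inflate N β]
  exact hcd _

section

variable {A : Subgroup G} [A.Normal]

theorem orderOf_lin_dvd_card (w : A →* ℂˣ) : orderOf w ∣ Nat.card A := by
  refine orderOf_dvd_of_pow_eq_one (MonoidHom.ext fun a => ?_)
  rw [MonoidHom.pow_apply, MonoidHom.one_apply, ← map_pow, pow_card_eq_one', map_one]

theorem coprime_stab (hcop : Nat.Coprime (Nat.card A) A.index) (w : A →* ℂˣ) :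
    Nat.Coprime ((A.subgroupOf (lstab A w)).index) (orderOf w) :=
  (hcop.symm.coprime_dvd_left (Subgroup.relIndex_dvd_index_of_normal A (lstab A w))).coprime_dvd_right
    (orderOf_lin_dvd_card w)

/-- A moved linear character has orbit length `m` and an abelian stabiliser quotient. -/
theorem moved_data (hcd : ∀ χ : IrrCharacter G, charDegree (χ : G → ℂ) = 1 ∨ charDegree (χ : G → ℂ) = m)
    (hcop : Nat.Coprime (Nat.card A) A.index) {w : A →* ℂˣ} (hw : lstab A w ≠ ⊤) :
    (lstab A w).index = m ∧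
      ∀ a ∈ lstab A w, ∀ b ∈ lstab A w, b * a * b⁻¹ * a⁻¹ ∈ A := by
  have ht : 1 < (lstab A w).index := Subgroup.one_lt_index_of_ne_top hw
  have key : ∀ β : IrrCharacter (lstab A w ⧸ A.subgroupOf (lstab A w)),
      (lstab A w).index * charDegree (β : lstab A w ⧸ A.subgroupOf (lstab A w) → ℂ) = m := by
    intro β
    obtain ⟨χ, hχ⟩ := exists_deg_eq_index_mul w (coprime_stab hcop w) β
    rcases hcd χ with h | h
    · rw [h] at hχ
      exact absurd (Nat.eq_one_of_mul_eq_one_right hχ.symm) ht.ne'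
    · rw [← hχ, h]
  obtain ⟨β₀, hβ₀⟩ : ∃ β : IrrCharacter (lstab A w ⧸ A.subgroupOf (lstab A w)),
      charDegree (β : lstab A w ⧸ A.subgroupOf (lstab A w) → ℂ) = 1 := by
    refine ⟨⟨fun _ => 1, Char.isIrrCharacter_const_one⟩, ?_⟩
    simp [charDegree]
  have hm : (lstab A w).index = m := by
    have := key β₀
    rwa [hβ₀, mul_one] at this
  refine ⟨hm, fun a ha b hb => ?_⟩
  have hc := comm_of_forall_linear (G := lstab A w ⧸ A.subgroupOf (lstab A w)) fun β => by
    refine (Nat.mul_eq_left (by omega : (lstab A w).index ≠ 0)).1 ?_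
    rw [key β, hm]
  have h1 := hc (⟨b, hb⟩ : lstab A w) (⟨a, ha⟩ : lstab A w)
  rw [← QuotientGroup.mk_mul, ← QuotientGroup.mk_mul] at h1
  have h2 : ((⟨b, hb⟩ * ⟨a, ha⟩ * (⟨b, hb⟩)⁻¹ * (⟨a, ha⟩)⁻¹ : lstab A w) :
      lstab A w ⧸ A.subgroupOf (lstab A w)) = 1 := by
    rw [QuotientGroup.mk_mul, QuotientGroup.mk_mul, h1, QuotientGroup.mk_mul, QuotientGroup.mk_inv,
      QuotientGroup.mk_inv, mul_inv_cancel_right, mul_inv_cancel]
  exact Subgroup.mem_subgroupOf.1 ((QuotientGroup.eq_one_iff _).1 h2)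

/-- Two elements centralising an abelian normal Hall subgroup which commute modulo it commute. -/
theorem commute_of_comm_mod (hcop : Nat.Coprime (Nat.card A) A.index) {a b : G}
    (ha : a ∈ Subgroup.centralizer (A : Set G)) (hb : b ∈ Subgroup.centralizer (A : Set G))
    (h : b * a * b⁻¹ * a⁻¹ ∈ A) : a * b = b * a := by
  have hda : Commute (b * a * b⁻¹ * a⁻¹) a := Subgroup.mem_centralizer_iff.1 ha _ h
  have h1 : b * a ^ A.index * b⁻¹ = a ^ A.index := by
    rw [← Subgroup.mem_centralizer_iff.1 hb _ (A.pow_index_mem a), mul_inv_cancel_right]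
  have h2 : (b * a * b⁻¹ * a⁻¹) ^ A.index = 1 := by
    have e : (b * a * b⁻¹ * a⁻¹) * a = b * a * b⁻¹ := by group
    have := congrArg (· ^ A.index) e
    simp only [hda.mul_pow, conj_pow, h1] at this
    simpa using this
  have h3 : (b * a * b⁻¹ * a⁻¹) ^ Nat.card A = 1 :=
    congrArg Subtype.val (pow_card_eq_one' (x := (⟨_, h⟩ : A)))
  have h4 : b * a * b⁻¹ * a⁻¹ = 1 := by
    have := pow_gcd_eq_one.2 ⟨h3, h2⟩
    rwa [hcop.gcd_eq_one, pow_one] at this
  rw [mul_inv_eq_one, mul_inv_eq_iff_eq_mul] at h4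
  exact h4.symm

/-- If the action on an abelian normal Hall subgroup is abelian and nontrivial, its centraliser is
abelian of index `m`. -/
theorem centralizer_spec (hcd : ∀ χ : IrrCharacter G, charDegree (χ : G → ℂ) = 1 ∨ charDegree (χ : G → ℂ) = m)
    (hA : ∀ a ∈ A, ∀ b ∈ A, a * b = b * a) (hcop : Nat.Coprime (Nat.card A) A.index)
    (hcomm : ∀ (x y : G) (w : A →* ℂˣ), cjl A (x * y) w = cjl A (y * x) w)
    {w₀ : A →* ℂˣ} (hw₀ : lstab A w₀ ≠ ⊤) :
    ∃ C : Subgroup G, C.Normal ∧ (∀ a ∈ C, ∀ b ∈ C, a * b = b * a) ∧ C.index = m := by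
  have hidx : ∀ w : A →* ℂˣ, lstab A w ≠ ⊤ → (lstab A w).index = m := fun w hw =>
    (moved_data hcd hcop hw).1
  have hle : ∀ {T T' : A →* ℂˣ}, lstab A T ≠ ⊤ → lstab A T' ≠ ⊤ → lstab A T ≤ lstab A T' →
      lstab A T = lstab A T' := fun {T T'} h h' hle =>
    le_antisymm hle (Subgroup.relIndex_eq_one.1 (by
      have := Subgroup.relIndex_mul_index hle
      rw [hidx _ h, hidx _ h'] at this
      have hm0 : m ≠ 0 := hidx _ h ▸ Subgroup.index_ne_zero_of_finite
      exact (Nat.mul_eq_right hm0).1 this))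
  have hsame : ∀ w₁ w₂ : A →* ℂˣ, lstab A w₁ ≠ ⊤ → lstab A w₂ ≠ ⊤ → lstab A w₁ = lstab A w₂ := by
    intro w₁ w₂ h1 h2
    by_contra hne
    have hsub : lstab A (w₁ * w₂) ≤ lstab A w₁ := by
      intro b hb
      rw [mem_lstab, cjl_mul] at hb
      set d := cjl A b w₁ * w₁⁻¹ with hd
      have hd' : d = w₂ * (cjl A b w₂)⁻¹ := by
        refine MonoidHom.ext fun a => ?_
        have h4 : cjl A b w₁ a * cjl A b w₂ a = w₁ a * w₂ a := DFunLike.congr_fun hb a
        simp only [hd, MonoidHom.mul_apply, MonoidHom.inv_apply, mul_inv_eq_iff_eq_mul]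
        rw [mul_right_comm, eq_mul_inv_iff_mul_eq, h4, mul_comm]
      have hd1 : lstab A w₁ ≤ lstab A d := fun c hc => by
        rw [mem_lstab, hd, cjl_mul, cjl_inv, cjl_cjl, hcomm, ← cjl_cjl, mem_lstab.1 hc]
      have hd2 : lstab A w₂ ≤ lstab A d := fun c hc => by
        rw [mem_lstab, hd', cjl_mul, cjl_inv, cjl_cjl, hcomm, ← cjl_cjl, mem_lstab.1 hc]
      have hdtop : lstab A d = ⊤ := by
        by_contra h3
        exact hne ((hle h1 h3 hd1).trans (hle h2 h3 hd2).symm)
      have hbd : cjl A b d = d :=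
        mem_lstab.1 (show b ∈ lstab A d by rw [hdtop]; exact Subgroup.mem_top b)
      have hb1 : cjl A b w₁ = w₁ * d := MonoidHom.ext fun a => by
        simp only [hd, MonoidHom.mul_apply, MonoidHom.inv_apply, mul_comm (cjl A b w₁ a),
          mul_inv_cancel_left]
      have hpow : ∀ (k : ℕ) (a : A), cjl A (b ^ k) w₁ a = w₁ a * d a ^ k := by
        intro k
        induction k with
        | zero => simp
        | succ k ih =>
          intro a
          rw [pow_succ, ← cjl_cjl, cjl_apply, ih, ← cjl_apply b w₁, ← cjl_apply b d, hbd, hb1,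
            MonoidHom.mul_apply, mul_assoc, ← pow_succ']
      rw [mem_lstab]
      refine MonoidHom.ext fun a => ?_
      have hk : d a ^ A.index = 1 := by
        have := hpow A.index a
        rw [mem_lstab.1 (le_lstab w₁ (A.pow_index_mem b))] at this
        exact left_eq_mul.1 this
      have hc : d a ^ Nat.card A = 1 := by rw [← map_pow, pow_card_eq_one', map_one]
      have hone : d a = 1 := by
        have := pow_gcd_eq_one.2 ⟨hc, hk⟩
        rwa [hcop.gcd_eq_one, pow_one] at this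
      rwa [hd, MonoidHom.mul_apply, MonoidHom.inv_apply, mul_inv_eq_one] at hone
    have h3 : lstab A (w₁ * w₂) ≠ ⊤ := fun h => h1 (top_le_iff.1 (h ▸ hsub))
    have he := hle h3 h1 hsub
    have hsub2 : lstab A w₁ ≤ lstab A w₂ := fun b hb => by
      have h4 := hb
      rw [← he, mem_lstab, cjl_mul, mem_lstab.1 hb] at h4
      refine mem_lstab.2 (MonoidHom.ext fun a => ?_)
      exact mul_left_cancel (a := w₁ a) (DFunLike.congr_fun h4 a)
    exact hne (hle h1 h2 hsub2)
  have hall : ∀ w : A →* ℂˣ, lstab A w₀ ≤ lstab A w := fun w => by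
    by_cases hw : lstab A w = ⊤
    · rw [hw]; exact le_top
    · rw [hsame w₀ w hw₀ hw]
  have hC : lstab A w₀ = Subgroup.centralizer (A : Set G) :=
    le_antisymm (fun g hg => mem_centralizer_of_forall_lstab hA fun w => hall w hg)
      (le_lstab_of_centralizer w₀)
  obtain ⟨hi, hq⟩ := moved_data hcd hcop hw₀
  refine ⟨lstab A w₀, ⟨fun n hn g => ?_⟩, fun a ha b hb => ?_, hi⟩
  · rw [mem_lstab] at hn ⊢
    rw [hcomm, inv_mul_cancel_left]
    exact hn
  · exact commute_of_comm_mod hcop (hC ▸ ha) (hC ▸ hb) (hq a ha b hb)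

/-- With a `p`-group quotient, a nontrivial action on an abelian normal Hall subgroup is abelian. -/
theorem cjl_comm_of_pGroup {p : ℕ} [Fact p.Prime]
    (hcd : ∀ χ : IrrCharacter G, charDegree (χ : G → ℂ) = 1 ∨ charDegree (χ : G → ℂ) = m)
    (hA : ∀ a ∈ A, ∀ b ∈ A, a * b = b * a) (hcop : Nat.Coprime (Nat.card A) A.index)
    (hP : IsPGroup p (G ⧸ A)) (x y : G) (w : A →* ℂˣ) :
    cjl A (x * y) w = cjl A (y * x) w := by
  haveI : (Subgroup.centralizer (A : Set G)).Normal := inferInstance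
  set C := Subgroup.centralizer (A : Set G) with hC
  have hAC : A ≤ C := fun a ha => Subgroup.mem_centralizer_iff.2 fun b hb => hA b hb a ha
  have hPC : IsPGroup p (G ⧸ C) := hP.of_surjective
    (QuotientGroup.map A C (MonoidHom.id G) (fun a ha => hAC ha)) (fun q => by
      obtain ⟨g, rfl⟩ := QuotientGroup.mk_surjective q
      exact ⟨(g : G ⧸ A), rfl⟩)
  suffices hq : ∀ a b : G ⧸ C, a * b = b * a by
    have h1 : (x * y) * (y * x)⁻¹ ∈ C := by
      rw [← QuotientGroup.eq_one_iff, QuotientGroup.mk_mul, QuotientGroup.mk_inv, mul_inv_eq_one,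
        QuotientGroup.mk_mul, QuotientGroup.mk_mul]
      exact hq _ _
    conv_lhs => rw [show x * y = ((x * y) * (y * x)⁻¹) * (y * x) by group, ← cjl_cjl,
      mem_lstab.1 (le_lstab_of_centralizer w h1)]
  by_contra hne
  have hlin : ¬ ∀ β : IrrCharacter (G ⧸ C), charDegree (β : G ⧸ C → ℂ) = 1 := fun h =>
    hne (comm_of_forall_linear h)
  push Not at hlin
  obtain ⟨β, hβ⟩ := hlin
  have hβm := (degrees_quotient hcd C β).resolve_left hβ
  haveI : Nontrivial (G ⧸ C) := by
    by_contra hs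
    haveI := not_nontrivial_iff_subsingleton.1 hs
    exact hne fun a b => Subsingleton.elim _ _
  haveI := hPC.center_nontrivial
  obtain ⟨⟨z, hz⟩, hz1⟩ := exists_ne (1 : Subgroup.center (G ⧸ C))
  obtain ⟨z, rfl⟩ := QuotientGroup.mk_surjective z
  have hzC : z ∉ C := fun h => hz1 (Subtype.ext ((QuotientGroup.eq_one_iff z).2 h))
  obtain ⟨w₁, hw₁⟩ : ∃ w₁ : A →* ℂˣ, z ∉ lstab A w₁ := by
    by_contra hc
    push Not at hc
    exact hzC (mem_centralizer_of_forall_lstab hA hc)
  obtain ⟨hi, hq⟩ := moved_data hcd hcop (w := w₁) fun h => hw₁ (h ▸ Subgroup.mem_top z)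
  set T := (lstab A w₁).map (QuotientGroup.mk' C) with hT
  have hTi : T.index = m := by
    rw [← hi, hT, Subgroup.index_map, QuotientGroup.ker_mk', sup_of_le_left (le_lstab_of_centralizer w₁),
      MonoidHom.range_eq_top.2 (QuotientGroup.mk'_surjective C), Subgroup.index_top, mul_one]
  have hzT : (z : G ⧸ C) ∉ T := by
    rintro ⟨t, ht, he⟩
    refine hw₁ ?_
    have h1 : t⁻¹ * z ∈ C := (QuotientGroup.eq).1 he
    simpa using (lstab A w₁).mul_mem ht (le_lstab_of_centralizer w₁ h1)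
  have hTc : ∀ a ∈ T, ∀ b ∈ T, a * b = b * a := by
    rintro _ ⟨a, ha, rfl⟩ _ ⟨b, hb, rfl⟩
    have h1 : ((b * a * b⁻¹ * a⁻¹ : G) : G ⧸ C) = 1 := (QuotientGroup.eq_one_iff _).2 (hAC (hq a ha b hb))
    rw [QuotientGroup.mk'_apply, QuotientGroup.mk'_apply]
    simp only [QuotientGroup.mk_mul, QuotientGroup.mk_inv, mul_inv_eq_iff_eq_mul, one_mul] at h1
    exact h1.symm
  set H := Subgroup.closure (insert (z : G ⧸ C) (T : Set (G ⧸ C))) with hH
  have hHc : ∀ a ∈ H, ∀ b ∈ H, a * b = b * a := by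
    intro a ha b hb
    haveI : IsMulCommutative H := Subgroup.isMulCommutative_closure (by
      intro u hu v hv
      rcases hu with rfl | hu
      · exact (Subgroup.mem_center_iff.1 hz v).symm
      · rcases hv with rfl | hv
        · exact Subgroup.mem_center_iff.1 hz u
        · exact hTc u hu v hv)
    exact congrArg Subtype.val (mul_comm' (⟨a, ha⟩ : H) ⟨b, hb⟩)
  have hlt : H.index < T.index := by
    refine Subgroup.index_strictAnti ?_
    refine lt_of_le_of_ne ((Set.subset_insert _ _).trans Subgroup.subset_closure) fun h => hzT ?_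
    rw [h]
    exact Subgroup.subset_closure (Set.mem_insert _ _)
  have := deg_le_index_of_comm H hHc β
  omega

end

/-- The structure theorem for groups with two character degrees. -/
theorem two_degrees_structure
    (hcd : ∀ χ : IrrCharacter G, charDegree (χ : G → ℂ) = 1 ∨ charDegree (χ : G → ℂ) = m)
    (hm : ∃ χ : IrrCharacter G, charDegree (χ : G → ℂ) = m) (hm1 : m ≠ 1) :
    (∃ A : Subgroup G, A.Normal ∧ (∀ a ∈ A, ∀ b ∈ A, a * b = b * a) ∧ A.index = m) ∨
      ∃ p e : ℕ, p.Prime ∧ m = p ^ e ∧ ∃ P A : Subgroup G, P.Normal ∧ A.Normal ∧ IsPGroup p P ∧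
        (∀ a ∈ A, ∀ b ∈ A, a * b = b * a) ∧ P ⊓ A = ⊥ ∧ P ⊔ A = ⊤ := by
  obtain ⟨χ₀, hχ₀⟩ := hm
  have hm0 : m ≠ 0 := hχ₀ ▸ (deg_pos χ₀).ne'
  let N : Subgroup G := ⨅ p : m.primeFactors, pResidual (p : ℕ) G
  haveI hNn : N.Normal := Subgroup.normal_iInf_normal fun p => inferInstance
  have hp : ∀ p ∈ m.primeFactors, ¬ p ∣ Nat.card N := fun p hp h => by
    haveI : Fact p.Prime := ⟨Nat.prime_of_mem_primeFactors hp⟩
    refine Char.not_dvd_card_pResidual_of_degrees (p := p) (fun χ hχ => ?_)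
      (h.trans (Subgroup.card_dvd_of_le (iInf_le (fun q : m.primeFactors => pResidual (q : ℕ) G) ⟨p, hp⟩)))
    rw [(hcd χ).resolve_left hχ]
    exact Nat.dvd_of_mem_primeFactors hp
  have hNm : Nat.Coprime (Nat.card N) m := Nat.coprime_of_dvd fun q hq h1 h2 =>
    hp q (Nat.mem_primeFactors.2 ⟨hq, h2, hm0⟩) h1
  have hcop : Nat.Coprime (Nat.card N) N.index := Nat.coprime_of_dvd fun q hq h1 h2 => by
    haveI : Fact q.Prime := ⟨hq⟩
    obtain ⟨x, hx⟩ := exists_prime_orderOf_dvd_card' (G := G ⧸ N) q h2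
    obtain ⟨g, rfl⟩ := QuotientGroup.mk_surjective x
    have hall : g ∈ N := by
      simp only [N, Subgroup.mem_iInf]
      rintro ⟨p, hpm⟩
      haveI : Fact p.Prime := ⟨Nat.prime_of_mem_primeFactors hpm⟩
      have hle : N ≤ pResidual p G := iInf_le (fun q : m.primeFactors => pResidual (q : ℕ) G) ⟨p, hpm⟩
      have h3 : orderOf (g : G ⧸ pResidual p G) ∣ q :=
        hx ▸ orderOf_map_dvd (QuotientGroup.map N (pResidual p G) (MonoidHom.id G) fun x hx => hle hx) (g : G ⧸ N)
      obtain ⟨k, hk⟩ := IsPGroup.iff_orderOf.1 Transfer.isPGroup_quotient_pResidual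
        (g : G ⧸ pResidual p G)
      rw [hk] at h3
      rcases k.eq_zero_or_pos with rfl | hk0
      · rw [pow_zero, orderOf_eq_one_iff, QuotientGroup.eq_one_iff] at hk
        exact hk
      · have h4 : p = q := (Nat.prime_dvd_prime_iff_eq Fact.out hq).1 ((dvd_pow_self p hk0.ne').trans h3)
        exact absurd h1 (hp q (h4 ▸ hpm))
    rw [(QuotientGroup.eq_one_iff g).2 hall, orderOf_one] at hx
    exact hq.one_lt.ne hx
  have hA : ∀ a ∈ N, ∀ b ∈ N, a * b = b * a := by
    intro a ha b hb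
    refine congrArg Subtype.val (comm_of_forall_linear (G := N) (fun θ => ?_) ⟨a, ha⟩ ⟨b, hb⟩)
    obtain ⟨χ, hχ⟩ := exists_deg_dvd N θ
    rcases hcd χ with h | h <;> rw [h] at hχ
    · exact Nat.dvd_one.1 hχ
    · exact Nat.eq_one_of_dvd_coprimes hNm (BlkChar.irr_charDegree_dvd_card θ) hχ
  have hcases : (∀ a b : G, (a * b) * (b * a)⁻¹ ∈ N) ∨
      ∃ p e : ℕ, p.Prime ∧ m = p ^ e ∧ N = pResidual p G := by
    by_cases h1 : ∃ p, m.primeFactors = {p}
    · obtain ⟨p, h1⟩ := h1
      have hpp : p.Prime := Nat.prime_of_mem_primeFactors (h1 ▸ Finset.mem_singleton_self p)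
      obtain ⟨k, hk, -⟩ : ∃ k, m = p ^ k ∧ True :=
        ⟨m.primeFactorsList.length, Nat.eq_prime_pow_of_unique_prime_dvd hm0 fun {q} hq hd =>
          Finset.mem_singleton.1 (h1 ▸ Nat.mem_primeFactors.2 ⟨hq, hd, hm0⟩), trivial⟩
      refine Or.inr ⟨p, k, hpp, hk, le_antisymm
        (iInf_le (fun q : m.primeFactors => pResidual (q : ℕ) G) ⟨p, h1 ▸ Finset.mem_singleton_self p⟩)
        (le_iInf fun q => ?_)⟩
      rw [show (q : ℕ) = p from Finset.mem_singleton.1 (h1 ▸ q.2 : (q : ℕ) ∈ ({p} : Finset ℕ))]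
    · refine Or.inl fun a b => ?_
      simp only [N, Subgroup.mem_iInf]
      rintro ⟨p, hpm⟩
      haveI : Fact p.Prime := ⟨Nat.prime_of_mem_primeFactors hpm⟩
      obtain ⟨n, hn⟩ := Transfer.exists_index_pResidual_eq_pow (p := p) (G := G)
      rw [← QuotientGroup.eq_one_iff, QuotientGroup.mk_mul, QuotientGroup.mk_inv, mul_inv_eq_one,
        QuotientGroup.mk_mul, QuotientGroup.mk_mul]
      refine comm_of_forall_linear (fun β => (degrees_quotient hcd _ β).resolve_right fun hb => h1 ?_) _ _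
      have h2 : m ∣ p ^ n := hn ▸ hb ▸ BlkChar.irr_charDegree_dvd_card β
      refine ⟨p, Finset.eq_singleton_iff_unique_mem.2 ⟨hpm, fun q hq => ?_⟩⟩
      exact (Nat.prime_dvd_prime_iff_eq (Nat.prime_of_mem_primeFactors hq) Fact.out).1
        ((Nat.prime_of_mem_primeFactors hq).dvd_of_dvd_pow ((Nat.dvd_of_mem_primeFactors hq).trans h2))
  by_cases hmv : ∃ w : N →* ℂˣ, lstab N w ≠ ⊤
  · obtain ⟨w₀, hw₀⟩ := hmv
    refine Or.inl (centralizer_spec hcd hA hcop ?_ hw₀)
    rcases hcases with h | ⟨p, e, hpp, -, hNp⟩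
    · intro x y w
      conv_lhs => rw [show x * y = ((x * y) * (y * x)⁻¹) * (y * x) by group, ← cjl_cjl,
        mem_lstab.1 (le_lstab w (h x y))]
    · haveI : Fact p.Prime := ⟨hpp⟩
      have hP : IsPGroup p (G ⧸ N) := by
        obtain ⟨n, hn⟩ := Transfer.exists_index_pResidual_eq_pow (p := p) (G := G)
        refine IsPGroup.of_card (n := n) ?_
        rw [← Subgroup.index_eq_card, hNp, hn]
      exact fun x y w => cjl_comm_of_pGroup hcd hA hcop hP x y w
  · push Not at hmv
    have hcent : ∀ g : G, g ∈ Subgroup.centralizer (N : Set G) := fun g =>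
      mem_centralizer_of_forall_lstab hA fun w => hmv w ▸ Subgroup.mem_top g
    rcases hcases with h | ⟨p, e, hpp, he, hNp⟩
    · exfalso
      refine hm1 (hχ₀ ▸ deg_eq_one_of_comm (fun a b => ?_) χ₀)
      refine commute_of_comm_mod hcop (hcent a) (hcent b) ?_
      have := h b a
      rwa [mul_inv_rev, ← mul_assoc] at this
    · haveI : Fact p.Prime := ⟨hpp⟩
      obtain ⟨P⟩ := (inferInstance : Nonempty (Sylow p G))
      have hsup : N ⊔ (P : Subgroup G) = ⊤ := hNp ▸ Transfer.pResidual_sup_sylow P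
      have hPn : (P : Subgroup G).Normal := by
        rw [← Subgroup.normalizer_eq_top_iff, ← top_le_iff, ← hsup]
        refine sup_le (fun a ha => ?_) Subgroup.le_normalizer
        exact Subgroup.centralizer_le_normalizer _ (Subgroup.mem_centralizer_iff.2 fun b _ =>
          (Subgroup.mem_centralizer_iff.1 (hcent b) a ha).symm)
      refine Or.inr ⟨p, e, hpp, he, P, N, hPn, hNn, P.2, hA, ?_, sup_comm N _ ▸ hsup⟩
      refine Subgroup.inf_eq_bot_of_coprime ?_
      obtain ⟨n, hn⟩ := IsPGroup.iff_card.1 P.2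
      rw [hn]
      refine Nat.Coprime.pow_left n (hpp.coprime_iff_not_dvd.2 (hp p ?_))
      refine Nat.mem_primeFactors.2 ⟨hpp, ?_, hm0⟩
      rw [he]
      refine dvd_pow_self p fun h0 => hm1 ?_
      rw [he, h0, pow_zero]

end Cfsg.Agent.CharDeg
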